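import Cfsg.Agent.H893.PrimMain
import Cfsg.Prelude.Def_GeometricClasses

/-!
# The linear group of a primitive affine group

`exists_irreducible` : for an elementary abelian minimal normal subgroup `N` of `G`, the image of
`G` in `Aut N` is isomorphic to an irreducible subgroup of `GL_d(p)`.
-/

set_option autoImplicit false

namespace Cfsg.Agent.H893

open Subgroup

theorem exists_irreducible_of_module {V : Type*} [CommGroup V] (p d : ℕ) [Fact p.Prime]
    [Module (ZMod p) (Additive V)] (hcard : Nat.card V = p ^ d) (A : Subgroup (MulAut V))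
    (hirr : ∀ M : Subgroup V, (∀ α ∈ A, ∀ x ∈ M, α x ∈ M) → M = ⊥ ∨ M = ⊤) :
    ∃ K : Subgroup (GL (Fin d) (ZMod p)),
      Cfsg.Geo.ActsIrreducibly {m : Matrix (Fin d) (Fin d) (ZMod p) |
        ∃ k ∈ K, (k : Matrix (Fin d) (Fin d) (ZMod p)) = m} ∧ Nonempty (K ≃* A) := by
  classical
  obtain ⟨b⟩ := Cfsg.Agent.Lib.ElemAbGL.exists_basis (W := Additive V) p d hcard
  -- the matrix of an automorphism
  let lin : MulAut V → (Additive V →ₗ[ZMod p] Additive V) := fun α =>
    (AddMonoidHom.toZModLinearMap p (MonoidHom.toAdditive α.toMonoidHom))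
  have hlin : ∀ (α : MulAut V) (x : V), lin α (Additive.ofMul x) = Additive.ofMul (α x) :=
    fun α x => rfl
  let Φ : MulAut V →* Matrix (Fin d) (Fin d) (ZMod p) :=
    { toFun := fun α => LinearMap.toMatrix b b (lin α)
      map_one' := by
        have : lin 1 = LinearMap.id := rfl
        rw [this, LinearMap.toMatrix_id]
      map_mul' := by
        intro α β
        have : lin (α * β) = (lin α) ∘ₗ (lin β) := rfl
        rw [this, LinearMap.toMatrix_comp b b b] }
  let ρ : MulAut V →* GL (Fin d) (ZMod p) := Φ.toHomUnits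
  have hρ : ∀ α, ((ρ α : GL (Fin d) (ZMod p)) : Matrix (Fin d) (Fin d) (ZMod p)) =
    LinearMap.toMatrix b b (lin α) := fun α => rfl
  have hinj : Function.Injective ρ := by
    intro α β h
    have h1 := congrArg (fun g : GL (Fin d) (ZMod p) => (g : Matrix (Fin d) (Fin d) (ZMod p))) h
    simp only [hρ] at h1
    have h2 := (LinearMap.toMatrix b b).injective h1
    ext x
    exact congrArg (fun f : Additive V →ₗ[ZMod p] Additive V => f (Additive.ofMul x)) h2
  refine ⟨A.map ρ, ?_, ⟨(A.equivMapOfInjective ρ hinj).symm⟩⟩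
  intro W hW
  let W' : Submodule (ZMod p) (Additive V) := W.comap (b.equivFun : Additive V →ₗ[ZMod p] _)
  have hW' : ∀ x : V, Additive.ofMul x ∈ W' ↔ b.equivFun (Additive.ofMul x) ∈ W :=
    fun x => Iff.rfl
  let M : Subgroup V :=
    { carrier := {x | Additive.ofMul x ∈ W'}
      one_mem' := W'.zero_mem
      mul_mem' := fun {x y} hx hy => W'.add_mem hx hy
      inv_mem' := fun {x} hx => W'.neg_mem hx }
  have hM : ∀ x : V, x ∈ M ↔ Additive.ofMul x ∈ W' := fun x => Iff.rfl
  have hMA : ∀ α ∈ A, ∀ x ∈ M, α x ∈ M := by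
    intro α hα x hx
    rw [hM, hW', ← hlin]
    have h3 := hW _ ⟨ρ α, ⟨α, hα, rfl⟩, rfl⟩ (Submodule.mem_map_of_mem ((hW' _).mp hx))
    rw [Matrix.toLin'_apply, hρ] at h3
    have h4 := LinearMap.toMatrix_mulVec_repr b b (lin α) (Additive.ofMul x)
    simp only [Module.Basis.equivFun_apply] at h3 ⊢
    rwa [h4] at h3
  rcases hirr M hMA with h | h
  · left
    rw [Submodule.eq_bot_iff]
    intro w hw
    have h1 : Additive.toMul (b.equivFun.symm w) ∈ M := by
      rw [hM, hW', ofMul_toMul, LinearEquiv.apply_symm_apply]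
      exact hw
    rw [h, mem_bot] at h1
    have h4 : b.equivFun.symm w = 0 := h1
    exact (LinearEquiv.map_eq_zero_iff _).mp h4
  · right
    rw [eq_top_iff]
    intro w _
    have h1 : Additive.toMul (b.equivFun.symm w) ∈ M := by
      rw [h]
      exact mem_top _
    rwa [hM, hW', ofMul_toMul, LinearEquiv.apply_symm_apply] at h1

theorem exists_irreducible_of_commGroup {V : Type*} [CommGroup V] (p d : ℕ) [Fact p.Prime]
    (hexp : ∀ x : V, x ^ p = 1) (hcard : Nat.card V = p ^ d) (A : Subgroup (MulAut V))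
    (hirr : ∀ M : Subgroup V, (∀ α ∈ A, ∀ x ∈ M, α x ∈ M) → M = ⊥ ∨ M = ⊤) :
    ∃ K : Subgroup (GL (Fin d) (ZMod p)),
      Cfsg.Geo.ActsIrreducibly {m : Matrix (Fin d) (Fin d) (ZMod p) |
        ∃ k ∈ K, (k : Matrix (Fin d) (Fin d) (ZMod p)) = m} ∧ Nonempty (K ≃* A) := by
  have h : ∀ x : Additive V, p • x = 0 := fun x => congrArg Additive.ofMul (hexp x.toMul)
  exact @exists_irreducible_of_module V _ p d _ (AddCommGroup.zmodModule h) hcard A hirr

theorem exists_irreducible {G : Type*} [Group G] (N : Subgroup G) [hN : N.Normal]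
    (p d : ℕ) [Fact p.Prime] (hab : ∀ x ∈ N, ∀ y ∈ N, Commute x y) (hexp : ∀ x ∈ N, x ^ p = 1)
    (hcard : Nat.card N = p ^ d)
    (hmin : ∀ M : Subgroup G, M.Normal → M ≤ N → M = ⊥ ∨ M = N) :
    ∃ K : Subgroup (GL (Fin d) (ZMod p)),
      Cfsg.Geo.ActsIrreducibly {m : Matrix (Fin d) (Fin d) (ZMod p) |
        ∃ k ∈ K, (k : Matrix (Fin d) (Fin d) (ZMod p)) = m} ∧
      Nonempty (K ≃* (MulAut.conjNormal : G →* MulAut N).range) := by
  have key : ∀ M : Subgroup N, (∀ α ∈ (MulAut.conjNormal : G →* MulAut N).range, ∀ x ∈ M,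
      α x ∈ M) → M = ⊥ ∨ M = ⊤ := by
    intro M hM
    have hMn : (M.map N.subtype).Normal := by
      refine ⟨?_⟩
      rintro _ ⟨x, hx, rfl⟩ g
      exact ⟨_, hM _ ⟨g, rfl⟩ x hx, by simp⟩
    rcases hmin _ hMn (map_subtype_le M) with h | h
    · left
      exact (Subgroup.map_eq_bot_iff_of_injective _ N.subtype_injective).mp h
    · right
      rw [eq_top_iff]
      intro x _
      have h1 : (x : G) ∈ M.map N.subtype := by rw [h]; exact x.2
      obtain ⟨y, hy, hyx⟩ := h1
      have : y = x := Subtype.ext hyx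
      exact this ▸ hy
  let inst : CommGroup N := { (inferInstance : Group N) with
    mul_comm := fun x y => Subtype.ext (hab x x.2 y y.2) }
  exact @exists_irreducible_of_commGroup N inst p d _ (fun x => Subtype.ext (hexp x x.2)) hcard
    (MulAut.conjNormal : G →* MulAut N).range key

end Cfsg.Agent.H893
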