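import Cfsg.Agent.H893.CLen

/-!
# Composition length of permutation groups: reduction to primitive groups

`Bd n` : a permutation group of degree `n` with an invariant map onto a set with `m` elements has
composition length at most `4 / 3 * (n - m)`.
-/

set_option autoImplicit false

namespace Cfsg.Agent.H893

open Subgroup Equiv

open scoped Pointwise

universe v

/-- The bound for permutation groups of degree `n` with `m` invariant classes. -/
def Bd (n : ℕ) : Prop := ∀ (Ω : Type v) [Finite Ω] (G : Subgroup (Perm Ω)) (m : ℕ)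
  (F : Ω → Fin m), Function.Surjective F → (∀ g ∈ G, ∀ x, F (g x) = F x) → Nat.card Ω = n →
    3 * clen G + 4 * m ≤ 4 * n

theorem Bd.hom {n : ℕ} (h : Bd.{v} n) {K : Type*} [Group K] {Ω : Type v} [Finite Ω]
    (φ : K →* Perm Ω) {ι : Type*} [Finite ι] (F : Ω → ι) (hF : Function.Surjective F)
    (hinv : ∀ k x, F (φ k x) = F x) (hn : Nat.card Ω = n) :
    3 * clen φ.range + 4 * Nat.card ι ≤ 4 * n := by
  refine h Ω φ.range (Nat.card ι) (fun x => Finite.equivFin ι (F x)) ?_ ?_ hn
  · exact (Finite.equivFin ι).surjective.comp hF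
  · rintro _ ⟨k, rfl⟩ x
    rw [hinv]

section

variable {Ω : Type v}

/-- restriction to an invariant subset -/
def restr (K : Subgroup (Perm Ω)) (p : Ω → Prop) (hp : ∀ g ∈ K, ∀ x, p (g x) ↔ p x) :
    K →* Perm {x // p x} where
  toFun g := (g : Perm Ω).subtypePerm (hp g g.2)
  map_one' := by ext x; rfl
  map_mul' a b := by ext x; rfl

theorem restr_apply (K : Subgroup (Perm Ω)) (p : Ω → Prop) (hp : ∀ g ∈ K, ∀ x, p (g x) ↔ p x)
    (g : K) (x : {x // p x}) : ((restr K p hp g x : {x // p x}) : Ω) = (g : Perm Ω) x := rfl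

theorem mem_ker_restr (K : Subgroup (Perm Ω)) (p : Ω → Prop) (hp : ∀ g ∈ K, ∀ x, p (g x) ↔ p x)
    (g : K) : g ∈ (restr K p hp).ker ↔ ∀ x, p x → (g : Perm Ω) x = x := by
  rw [MonoidHom.mem_ker]
  constructor
  · intro h x hx
    rw [← restr_apply K p hp g ⟨x, hx⟩, h]
    rfl
  · intro h
    ext x
    exact h x.1 x.2

theorem clen_restr [Finite Ω] (K : Subgroup (Perm Ω)) (p : Ω → Prop)
    (hp : ∀ g ∈ K, ∀ x, p (g x) ↔ p x) (hfix : ∀ g ∈ K, ∀ x, ¬ p x → g x = x) :
    clen (restr K p hp).range = clen K := by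
  have hker : (restr K p hp).ker = ⊥ := by
    rw [eq_bot_iff]
    intro g hg
    rw [mem_ker_restr] at hg
    rw [mem_bot]
    apply Subtype.ext
    ext x
    by_cases hx : p x
    · exact hg x hx
    · exact hfix g g.2 x hx
  rw [clen_range (restr K p hp), hker, clen_of_bot, zero_add]

theorem Bd.sub [Finite Ω] {n : ℕ} (h : Bd.{v} n) (K : Subgroup (Perm Ω)) (p : Ω → Prop)
    (hp : ∀ g ∈ K, ∀ x, p (g x) ↔ p x) (hcard : Nat.card {x // p x} = n) {ι : Type*} [Finite ι]
    (F : Ω → ι) (hF : ∀ i, ∃ x, p x ∧ F x = i) (hinv : ∀ g ∈ K, ∀ x, p x → F (g x) = F x) :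
    3 * clen (restr K p hp).range + 4 * Nat.card ι ≤ 4 * n := by
  refine h.hom (restr K p hp) (fun x => F x.1) ?_ ?_ hcard
  · intro i
    obtain ⟨x, hx, rfl⟩ := hF i
    exact ⟨⟨x, hx⟩, rfl⟩
  · intro k x
    exact hinv k k.2 x.1 x.2

/-- The intransitive step. -/
theorem step_one [Finite Ω] {n : ℕ} (IH : ∀ n' < n, Bd.{v} n') (G : Subgroup (Perm Ω)) (m : ℕ)
    (hm : 2 ≤ m) (F : Ω → Fin m) (hF : Function.Surjective F)
    (hinv : ∀ g ∈ G, ∀ x, F (g x) = F x) (hn : Nat.card Ω = n) : 3 * clen G + 4 * m ≤ 4 * n := by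
  classical
  obtain ⟨m', rfl⟩ : ∃ m', m = m' + 1 := ⟨m - 1, by omega⟩
  let p : Ω → Prop := fun x => F x = Fin.last m'
  have hp : ∀ g ∈ G, ∀ x, p (g x) ↔ p x := by
    intro g hg x
    change F (g x) = _ ↔ F x = _
    rw [hinv g hg]
  -- the kernel on the last class
  let K : Subgroup (Perm Ω) := (restr G p hp).ker.map G.subtype
  have hKG : K ≤ G := by
    rintro _ ⟨g, _, rfl⟩
    exact g.2
  have hKfix : ∀ g ∈ K, ∀ x, p x → g x = x := by
    rintro _ ⟨g, hg, rfl⟩ x hx
    exact (mem_ker_restr G p hp g).mp hg x hx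
  have hp' : ∀ g ∈ K, ∀ x, ¬ p (g x) ↔ ¬ p x := fun g hg x => not_congr (hp g (hKG hg) x)
  have hcl : clen K = clen (restr G p hp).ker :=
    (clen_congr ((restr G p hp).ker.equivMapOfInjective G.subtype G.subtype_injective)).symm
  have hcard : Nat.card {x // p x} + Nat.card {x // ¬ p x} = n := by
    rw [← hn, ← Nat.card_sum]
    exact Nat.card_congr (Equiv.sumCompl p)
  have h1 : 0 < Nat.card {x // p x} := by
    obtain ⟨x, hx⟩ := hF (Fin.last m')
    have : Nonempty {x // p x} := ⟨⟨x, hx⟩⟩
    exact Nat.card_pos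
  have h2 : 0 < Nat.card {x // ¬ p x} := by
    obtain ⟨x, hx⟩ := hF 0
    have : Nonempty {x // ¬ p x} := ⟨⟨x, by
      change ¬ F x = Fin.last m'
      rw [hx]
      intro h
      have := congrArg Fin.val h
      simp at this
      omega⟩⟩
    exact Nat.card_pos
  have b1 := (IH _ (by omega : Nat.card {x // p x} < n)).sub G p hp rfl (ι := Unit)
    (fun _ => ()) (by
      intro i
      obtain ⟨x, hx⟩ := hF (Fin.last m')
      exact ⟨x, hx, rfl⟩) (fun _ _ _ _ => rfl)
  have b2 := (IH _ (by omega : Nat.card {x // ¬ p x} < n)).sub K (fun x => ¬ p x) hp' rfl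
    (ι := {i : Fin (m' + 1) // i ≠ Fin.last m'})
    (fun x => if h : F x ≠ Fin.last m' then ⟨F x, h⟩ else ⟨0, by
      intro h
      have := congrArg Fin.val h
      simp at this
      omega⟩) (by
      rintro ⟨i, hi⟩
      obtain ⟨x, rfl⟩ := hF i
      exact ⟨x, hi, by rw [dif_pos hi]⟩) (by
      intro g hg x _
      have := hinv g (hKG hg) x
      simp only [this])
  rw [clen_restr K (fun x => ¬ p x) hp' (fun g hg x hx => hKfix g hg x (not_not.mp hx)), hcl] at b2
  have h3 : Nat.card {i : Fin (m' + 1) // i ≠ Fin.last m'} = m' := by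
    rw [Nat.card_eq_fintype_card, Fintype.card_subtype_compl]
    simp
  rw [h3] at b2
  rw [Nat.card_unique] at b1
  rw [clen_range (restr G p hp)]
  omega

/-- restriction of a permutation representation to an invariant subset -/
def restrHom {K X : Type*} [Group K] (φ : K →* Perm X) (p : X → Prop)
    (hp : ∀ g x, p (φ g x) ↔ p x) : K →* Perm {x // p x} where
  toFun g := (φ g).subtypePerm (hp g)
  map_one' := by ext x; simp
  map_mul' a b := by
    ext x
    change φ (a * b) x = φ a (φ b x)
    rw [map_mul]; rfl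

theorem restrHom_apply {K X : Type*} [Group K] (φ : K →* Perm X) (p : X → Prop)
    (hp : ∀ g x, p (φ g x) ↔ p x) (g : K) (x : {x // p x}) :
    ((restrHom φ p hp g x : {x // p x}) : X) = φ g x := rfl

/-- The imprimitive step. -/
theorem step_two [Finite Ω] {n : ℕ} (IH : ∀ n' < n, Bd.{v} n') (G : Subgroup (Perm Ω))
    (htr : MulAction.IsPretransitive G Ω) (hnp : ¬ MulAction.IsPreprimitive G Ω)
    (hn : Nat.card Ω = n) : 3 * clen G + 4 ≤ 4 * n := by
  classical
  -- a non-trivial block
  obtain ⟨B, hB, hB1, hB2⟩ : ∃ B : Set Ω, MulAction.IsBlock G B ∧ ¬ B.Subsingleton ∧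
      B ≠ Set.univ := by
    by_contra hcon
    apply hnp
    refine { htr with isTrivialBlock_of_isBlock := fun {B} hB => ?_ }
    by_cases h : B.Subsingleton
    · exact Or.inl h
    · refine Or.inr (by_contra fun h' => hcon ⟨B, hB, h, h'⟩)
  obtain ⟨b₀, hb₀, b₁, hb₁, hne⟩ := Set.not_subsingleton_iff.mp hB1
  have hex : ∀ x : Ω, ∃ g : G, x ∈ g • B := by
    intro x
    obtain ⟨g, hg⟩ := htr.exists_smul_eq b₀ x
    exact ⟨g, ⟨b₀, hb₀, hg⟩⟩
  choose c hc using hex
  let f : Ω → Set Ω := fun x => c x • B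
  have hf : ∀ x (g : G), x ∈ g • B → f x = g • B := by
    intro x g hx
    exact hB.smul_eq_smul_of_nonempty ⟨x, hc x, hx⟩
  have hfmem : ∀ x, x ∈ f x := hc
  have hfg : ∀ (g : G) x, f ((g : Perm Ω) x) = g • f x := by
    intro g x
    have h1 : (g : Perm Ω) x ∈ (g * c x) • B := by
      rw [mul_smul]
      exact Set.smul_mem_smul_set (hc x)
    rw [hf _ _ h1, mul_smul]
  let p : Set Ω → Prop := fun s => ∃ x, f x = s
  have hp : ∀ (g : G) s, p (MulAction.toPermHom G (Set Ω) g s) ↔ p s := by
    intro g s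
    rw [MulAction.toPermHom_apply, MulAction.toPerm_apply]
    constructor
    · rintro ⟨x, hx⟩
      refine ⟨((g⁻¹ : G) : Perm Ω) x, ?_⟩
      rw [hfg, hx, inv_smul_smul]
    · rintro ⟨x, rfl⟩
      exact ⟨(g : Perm Ω) x, hfg g x⟩
  let φ := restrHom (MulAction.toPermHom G (Set Ω)) p hp
  have hker : ∀ g : G, g ∈ φ.ker → ∀ x, f ((g : Perm Ω) x) = f x := by
    intro g hg x
    rw [hfg]
    rw [MonoidHom.mem_ker] at hg
    have h1 := restrHom_apply (MulAction.toPermHom G (Set Ω)) p hp g ⟨f x, x, rfl⟩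
    rw [show restrHom (MulAction.toPermHom G (Set Ω)) p hp g = 1 from hg] at h1
    exact h1.symm
  set b := Nat.card {s // p s} with hb
  have hbn : b < n := by
    rw [← hn, hb]
    have hsurj : Function.Surjective (fun x : Ω => (⟨f x, x, rfl⟩ : {s // p s})) := by
      rintro ⟨s, x, rfl⟩
      exact ⟨x, rfl⟩
    refine lt_of_le_of_ne (Nat.card_le_card_of_surjective _ hsurj) fun h => hne ?_
    have hbij := (Nat.bijective_iff_surjective_and_card _).mpr ⟨hsurj, h.symm⟩
    apply hbij.1
    apply Subtype.ext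
    change f b₀ = f b₁
    rw [hf b₀ 1 (by rwa [one_smul]), hf b₁ 1 (by rwa [one_smul])]
  have hb2 : 2 ≤ b := by
    obtain ⟨z, hz⟩ : ∃ z, z ∉ B := by
      by_contra hcon
      push Not at hcon
      exact hB2 (Set.eq_univ_of_forall hcon)
    have : Nontrivial {s // p s} := by
      refine ⟨⟨⟨f b₀, b₀, rfl⟩, ⟨f z, z, rfl⟩, fun h => hz ?_⟩⟩
      have h1 : f b₀ = f z := congrArg Subtype.val h
      have h2 := hfmem z
      rw [← h1, hf b₀ 1 (by rwa [one_smul]), one_smul] at h2
      exact h2
    exact Finite.one_lt_card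
  have b1 := (IH b hbn).hom φ (ι := Unit) (fun _ => ()) (by
    intro i
    exact ⟨⟨f b₀, b₀, rfl⟩, rfl⟩) (fun _ _ => rfl) rfl
  let K : Subgroup (Perm Ω) := φ.ker.map G.subtype
  have hcl : clen K = clen φ.ker :=
    (clen_congr (φ.ker.equivMapOfInjective G.subtype G.subtype_injective)).symm
  have b2 := step_one IH K b hb2 (fun x => Finite.equivFin {s // p s} ⟨f x, x, rfl⟩) (by
    refine (Finite.equivFin {s // p s}).surjective.comp ?_
    rintro ⟨s, x, rfl⟩
    exact ⟨x, rfl⟩) (by
    rintro _ ⟨g, hg, rfl⟩ x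
    have h1 : f ((g : Perm Ω) x) = f x := hker g hg x
    simp only [Subgroup.coe_subtype, h1]) hn
  rw [clen_range φ, ← hcl]
  rw [Nat.card_unique] at b1
  omega

/-- The reduction to primitive groups. -/
theorem bd_of_prim (hprim : ∀ n : ℕ, (∀ n' < n, Bd.{v} n') → ∀ (Ω : Type v) [Finite Ω]
    (G : Subgroup (Perm Ω)), MulAction.IsPreprimitive G Ω → Nat.card Ω = n → 0 < n →
    3 * clen G + 4 ≤ 4 * n) : ∀ n, Bd.{v} n := by
  intro n
  induction n using Nat.strong_induction_on with
  | _ n IH =>
    intro Ω _ G m F hF hinv hn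
    rcases Nat.lt_or_ge m 2 with hm | hm
    · rcases Nat.eq_zero_or_pos n with h0 | h0
      · -- the empty set
        have hE : IsEmpty Ω := by
          rw [← Finite.card_eq_zero_iff, hn, h0]
        have hm0 : m = 0 := by
          by_contra hm0
          obtain ⟨x, _⟩ := hF ⟨0, by omega⟩
          exact hE.false x
        have : Subsingleton G := ⟨fun a b => Subtype.ext (Equiv.ext fun x => (hE.false x).elim)⟩
        rw [clen_of_subsingleton]
        omega
      · have key : 3 * clen G + 4 ≤ 4 * n := by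
          by_cases htr : MulAction.IsPretransitive G Ω
          · by_cases hp : MulAction.IsPreprimitive G Ω
            · exact hprim n IH Ω G hp hn h0
            · exact step_two IH G htr hp hn
          · -- intransitive
            classical
            obtain ⟨x, y, hxy⟩ : ∃ x y : Ω, ∀ g : G, (g : Perm Ω) x ≠ y := by
              by_contra hcon
              push Not at hcon
              exact htr ⟨fun x y => hcon x y⟩
            have h2 := step_one IH G 2 le_rfl
              (fun z => if ∃ g : G, (g : Perm Ω) x = z then (0 : Fin 2) else 1) (by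
                intro i
                fin_cases i
                · exact ⟨x, if_pos ⟨1, rfl⟩⟩
                · refine ⟨y, if_neg ?_⟩
                  rintro ⟨g, hg⟩
                  exact hxy g hg) (by
                intro g hg z
                have : (∃ k : G, (k : Perm Ω) x = g z) ↔ ∃ k : G, (k : Perm Ω) x = z := by
                  constructor
                  · rintro ⟨k, hk⟩
                    refine ⟨⟨g, hg⟩⁻¹ * k, ?_⟩
                    change g⁻¹ ((k : Perm Ω) x) = z
                    rw [hk]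
                    simp
                  · rintro ⟨k, rfl⟩
                    exact ⟨⟨g, hg⟩ * k, rfl⟩
                simp only [this]) hn
            omega
        omega
    · exact step_one IH G m hm F hF hinv hn

end

end Cfsg.Agent.H893
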