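import Cfsg.Agent.H893.PermBd
import Cfsg.Agent.H893.Fac
import Cfsg.Agent.Lib.ElemAbGL
import Cfsg.Agent.S0703
import Cfsg.Agent.S0722

/-!
# The composition length of a primitive group of degree `n` is at most `4 / 3 * (n - 1)`
-/

set_option autoImplicit false

namespace Cfsg.Agent.H893

open Subgroup Equiv ArithmeticFunction

universe v

/-- universe independent form of `Bd.hom` -/
theorem Bd.homU {n : ℕ} (h : Bd.{v} n) {K : Type*} [Group K] {Ω : Type*} [Finite Ω]
    (φ : K →* Perm Ω) {ι : Type*} [Finite ι] (F : Ω → ι) (hF : Function.Surjective F)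
    (hinv : ∀ k x, F (φ k x) = F x) (hn : Nat.card Ω = n) :
    3 * clen φ.range + 4 * Nat.card ι ≤ 4 * n := by
  let ε : Ω ≃ ULift.{v} (Fin n) := (Finite.equivFinOfCardEq hn).trans Equiv.ulift.symm
  let ψ : Perm Ω ≃* Perm (ULift.{v} (Fin n)) := ε.permCongrHom
  have h1 := h.hom (ψ.toMonoidHom.comp φ) (fun x => F (ε.symm x)) (hF.comp ε.symm.surjective) (by
    intro k x
    have : ε.symm ((ψ.toMonoidHom.comp φ) k x) = φ k (ε.symm x) := by
      change ε.symm (ε (φ k (ε.symm x))) = _
      rw [Equiv.symm_apply_apply]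
    rw [this, hinv]) (by simp)
  have h2 : clen (ψ.toMonoidHom.comp φ).range = clen φ.range := by
    have e : φ.range.map ψ.toMonoidHom = (ψ.toMonoidHom.comp φ).range := by
      rw [MonoidHom.map_range]
    rw [← clen_congr (MulEquiv.subgroupCongr e)]
    exact (clen_congr (φ.range.equivMapOfInjective ψ.toMonoidHom ψ.injective)).symm
  rw [h2] at h1
  exact h1

theorem inv_bound {Ω : Type v} [Finite Ω] {n : ℕ} (hB : Bd.{v} (n - 1)) (hn : Nat.card Ω = n)
    (a : Ω) (K₀ : Subgroup (Perm Ω)) (hK₀ : ∀ h ∈ K₀, h a = a) {X V : Type*} [Finite V]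
    (Φ : X → Ω) (cl : X → V) (v₀ : V) (hV : ∃ v, v ≠ v₀) (hsurj : Function.Surjective cl)
    (h0 : ∀ x, Φ x = a → cl x = v₀) (hwd : ∀ x y, Φ x = Φ y → cl x = cl y)
    (heq : ∀ h ∈ K₀, ∀ x, ∃ y, Φ y = h (Φ x) ∧ cl y = cl x) :
    3 * clen K₀ + 4 * (Nat.card V - 1) ≤ 4 * (n - 1) := by
  classical
  obtain ⟨v₁, hv₁⟩ := hV
  let F : Ω → {v // v ≠ v₀} := fun z =>
    if h : ∃ x, Φ x = z ∧ cl x ≠ v₀ then ⟨cl h.choose, h.choose_spec.2⟩ else ⟨v₁, hv₁⟩
  have hFx : ∀ x, (hx : cl x ≠ v₀) → F (Φ x) = ⟨cl x, hx⟩ := by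
    intro x hx
    have h : ∃ y, Φ y = Φ x ∧ cl y ≠ v₀ := ⟨x, rfl, hx⟩
    change (if h : ∃ y, Φ y = Φ x ∧ cl y ≠ v₀ then _ else _) = _
    rw [dif_pos h]
    exact Subtype.ext (hwd _ _ h.choose_spec.1)
  have hFn : ∀ z, (¬ ∃ x, Φ x = z ∧ cl x ≠ v₀) → F z = ⟨v₁, hv₁⟩ := fun z h => dif_neg h
  have hp : ∀ g ∈ K₀, ∀ x, (g x ≠ a) ↔ (x ≠ a) := by
    intro g hg x
    apply not_congr
    constructor
    · intro h
      apply g.injective
      rw [h, hK₀ g hg]
    · rintro rfl
      exact hK₀ g hg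
  have hcard : Nat.card {x : Ω // x ≠ a} = n - 1 := by
    have : Fintype Ω := Fintype.ofFinite Ω
    rw [Nat.card_eq_fintype_card, Fintype.card_subtype_compl, Fintype.card_subtype_eq, ← hn,
      Nat.card_eq_fintype_card]
  have h1 := hB.sub K₀ (fun x => x ≠ a) hp hcard F (by
    rintro ⟨v, hv⟩
    obtain ⟨x, rfl⟩ := hsurj v
    exact ⟨Φ x, fun h => hv (h0 x h), hFx x hv⟩) (by
    intro g hg z _
    by_cases h : ∃ x, Φ x = z ∧ cl x ≠ v₀
    · obtain ⟨x, rfl, hx⟩ := h
      obtain ⟨y, hy, hyx⟩ := heq g hg x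
      rw [← hy, hFx x hx, hFx y (by rw [hyx]; exact hx)]
      exact Subtype.ext hyx
    · have h' : ¬ ∃ x, Φ x = g z ∧ cl x ≠ v₀ := by
        rintro ⟨x, hx, hxv⟩
        apply h
        obtain ⟨y, hy, hyx⟩ := heq g⁻¹ (K₀.inv_mem hg) x
        refine ⟨y, ?_, by rw [hyx]; exact hxv⟩
        rw [hy, hx]
        simp
      rw [hFn _ h, hFn _ h'])
  have h2 : Nat.card {v // v ≠ v₀} = Nat.card V - 1 := by
    have : Fintype V := Fintype.ofFinite V
    rw [Nat.card_eq_fintype_card, Fintype.card_subtype_compl, Fintype.card_subtype_eq,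
      Nat.card_eq_fintype_card]
  have h3 : clen (restr K₀ (fun x => x ≠ a) hp).range = clen K₀ := by
    apply clen_restr
    intro g hg x hx
    rw [not_not] at hx
    rw [hx]
    exact hK₀ g hg
  rwa [h2, h3] at h1

/-! ### Numbers -/

theorem num_two (m : ℕ) : 7 * m ≤ 4 * 2 ^ m := by
  induction m with
  | zero => norm_num
  | succ m ih =>
    rcases Nat.lt_or_ge m 2 with h | h
    · interval_cases m <;> norm_num
    · have : 2 ^ 2 ≤ 2 ^ m := Nat.pow_le_pow_right (by norm_num) h
      rw [pow_succ]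
      omega

theorem num_three (m u : ℕ) (h : m ≤ 2 * u) : 7 * m ≤ 4 * 3 ^ u + 3 := by
  have : 14 * u ≤ 4 * 3 ^ u + 3 := by
    clear h
    induction u with
    | zero => norm_num
    | succ u ih =>
      rcases Nat.lt_or_ge u 1 with h | h
      · interval_cases u; norm_num
      · have : 3 ^ 1 ≤ 3 ^ u := Nat.pow_le_pow_right (by norm_num) h
        rw [pow_succ]
        omega
  omega

theorem lt_three_pow (m u : ℕ) (h : m ≤ 2 * u) : m < 3 ^ u := by
  have : 2 * u < 3 ^ u := by
    clear h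
    induction u with
    | zero => norm_num
    | succ u ih =>
      rw [pow_succ]
      have : 1 ≤ 3 ^ u := Nat.one_le_pow _ _ (by norm_num)
      omega
  omega

/-! ### The abelian case -/

theorem prod_le (p d : ℕ) : ∏ i : Fin d, (p ^ d - p ^ (i : ℕ)) ≤ p ^ (d * d) := by
  calc ∏ i : Fin d, (p ^ d - p ^ (i : ℕ)) ≤ ∏ _i : Fin d, p ^ d :=
        Finset.prod_le_prod' fun i _ => Nat.sub_le _ _
    _ = p ^ (d * d) := by simp [← pow_mul]

theorem prod_lt (p d : ℕ) (hp : 2 ≤ p) (hd : 0 < d) :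
    ∏ i : Fin d, (p ^ d - p ^ (i : ℕ)) < p ^ (d * d) := by
  calc ∏ i : Fin d, (p ^ d - p ^ (i : ℕ)) < ∏ _i : Fin d, p ^ d := by
        apply Finset.prod_lt_prod_of_nonempty
        · intro i _
          have h1 : p ^ (i : ℕ) < p ^ d := Nat.pow_lt_pow_right (by omega) i.2
          omega
        · intro i _
          have h1 : 0 < p ^ (i : ℕ) := pow_pos (by omega) _
          have h2 : 0 < p ^ d := pow_pos (by omega) _
          omega
        · exact ⟨⟨0, hd⟩, Finset.mem_univ _⟩
    _ = p ^ (d * d) := by simp [← pow_mul]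

theorem num_abelian (p d c M : ℕ) (hp : p.Prime) (hd : 0 < d)
    (hM : M ∣ ∏ i : Fin d, (p ^ d - p ^ (i : ℕ))) (hc : c ≤ cardFactors M) :
    3 * (d + c) + 4 ≤ 4 * p ^ d := by
  have hp2 := hp.two_le
  have hprod : ∏ i : Fin d, (p ^ d - p ^ (i : ℕ)) ≠ 0 := by
    rw [Finset.prod_ne_zero_iff]
    intro i _
    have : p ^ (i : ℕ) < p ^ d := Nat.pow_lt_pow_right (by omega) i.2
    omega
  have hM0 : M ≠ 0 := ne_zero_of_dvd_ne_zero hprod hM
  have h2c : 2 ^ c ≤ M := (Nat.pow_le_pow_right (by norm_num) hc).trans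
    (two_pow_cardFactors_le M hM0)
  have hMle : M ≤ ∏ i : Fin d, (p ^ d - p ^ (i : ℕ)) := Nat.le_of_dvd (Nat.pos_of_ne_zero hprod) hM
  rcases Nat.lt_or_ge d 2 with hd1 | hd2
  · -- `d = 1`
    obtain rfl : d = 1 := by omega
    simp only [Fin.prod_univ_one, Fin.val_zero, pow_zero, pow_one] at hMle ⊢
    have : c < 2 ^ c := Nat.lt_two_pow_self
    omega
  · rcases Nat.lt_or_ge p 3 with hp3 | hp3
    · obtain rfl : p = 2 := by omega
      rcases Nat.lt_or_ge d 4 with hd4 | hd4
      · interval_cases d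
        · -- `d = 2`
          have h6 : M ∣ 6 := by
            simpa [Fin.prod_univ_succ] using hM
          have h7 : cardFactors M ≤ cardFactors 6 := cardFactors_le_of_dvd h6 (by norm_num)
          have h8 : cardFactors 6 = 2 := by
            rw [show (6 : ℕ) = 2 * 3 by norm_num, cardFactors_mul (by norm_num) (by norm_num),
              cardFactors_apply_prime Nat.prime_two, cardFactors_apply_prime Nat.prime_three]
          omega
        · -- `d = 3`
          have h6 : M ∣ 168 := by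
            simpa [Fin.prod_univ_succ] using hM
          have h7 : cardFactors M ≤ cardFactors 168 := cardFactors_le_of_dvd h6 (by norm_num)
          have h8 : cardFactors 168 = 5 := by
            rw [show (168 : ℕ) = 2 ^ 3 * (3 * 7) by norm_num,
              cardFactors_mul (by norm_num) (by norm_num),
              cardFactors_mul (by norm_num) (by norm_num),
              cardFactors_apply_prime_pow Nat.prime_two, cardFactors_apply_prime Nat.prime_three,
              cardFactors_apply_prime (by norm_num)]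
          omega
      · -- `d ≥ 4`
        have h1 := prod_lt 2 d le_rfl hd
        have h3 : c < d * d := (Nat.pow_lt_pow_iff_right (by norm_num : 1 < 2)).mp
          ((h2c.trans hMle).trans_lt h1)
        have h4 : 3 * (d + d * d) + 1 ≤ 4 * 2 ^ d := by
          clear h3 h1 hMle h2c hM0 hprod hc hM
          induction d, hd4 using Nat.le_induction with
          | base => norm_num
          | succ d hd4 ih =>
            have := ih (by omega) (by omega)
            rw [pow_succ]
            nlinarith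
        omega
    · -- `p ≥ 3`, `d ≥ 2`
      have h1 : p ≤ 2 ^ (p - 1) := by
        have : p - 1 < 2 ^ (p - 1) := Nat.lt_two_pow_self
        omega
      have h3 : c ≤ (p - 1) * (d * d) := by
        apply (Nat.pow_le_pow_iff_right (by norm_num : 1 < 2)).mp
        calc 2 ^ c ≤ p ^ (d * d) := (h2c.trans hMle).trans (prod_le p d)
          _ ≤ (2 ^ (p - 1)) ^ (d * d) := Nat.pow_le_pow_left h1 _
          _ = 2 ^ ((p - 1) * (d * d)) := by rw [← pow_mul]
      have h4 : 3 * (d + (p - 1) * (d * d)) + 4 ≤ 4 * p ^ d := by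
        obtain ⟨q, rfl⟩ : ∃ q, p = q + 1 := ⟨p - 1, by omega⟩
        clear h3 h1 hMle h2c hM0 hprod hc hM
        rw [Nat.add_sub_cancel]
        induction d, hd2 using Nat.le_induction with
        | base => nlinarith
        | succ d hd4 ih =>
          have h5 := ih (by omega)
          rw [pow_succ]
          have h6 : 4 * (q + 1) ^ d * 3 ≤ 4 * ((q + 1) ^ d * (q + 1)) := by
            nlinarith [pow_pos (Nat.succ_pos q) d]
          have h7 : 2 * d + 1 ≤ 2 * (d * d) := by nlinarith
          have h8 : q * (2 * d + 1) ≤ q * (2 * (d * d)) := Nat.mul_le_mul_left q h7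
          have h9 : q * ((d + 1) * (d + 1)) = q * (d * d) + q * (2 * d + 1) := by ring
          have h10 : q * (2 * (d * d)) = 2 * (q * (d * d)) := by ring
          rw [h9]
          omega
      omega

end Cfsg.Agent.H893
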