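import Cfsg.Agent.H893.Prim

/-!
# The composition length of a primitive group of degree `n` is at most `4 / 3 * (n - 1)`
-/

set_option autoImplicit false

namespace Cfsg.Agent.H893

open Subgroup Equiv ArithmeticFunction

universe v

theorem card_mulAut {V : Type*} [Group V] {r : ℕ} [Fact r.Prime] (hc : ∀ a b : V, a * b = b * a)
    (hpow : ∀ a : V, a ^ r = 1) {k : ℕ} (hk : Nat.card V = r ^ k) :
    Nat.card (MulAut V) = ∏ i : Fin k, (r ^ k - r ^ (i : ℕ)) := by
  let _ : CommGroup V := { (inferInstance : Group V) with mul_comm := hc }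
  obtain ⟨e⟩ := Lib.ElemAbGL.mulAut_equiv_GL (V := V) r k hpow hk
  rw [Nat.card_congr e.toEquiv, Matrix.card_GL_field]
  simp [ZMod.card]

/-- facts about a minimal normal subgroup of a primitive group -/
theorem prim_facts {Ω : Type*} [Finite Ω] (G : Subgroup (Perm Ω))
    (hG : MulAction.IsPreprimitive G Ω) (N : Subgroup G) [N.Normal] (hN : N ≠ ⊥) :
    MulAction.IsPretransitive N Ω ∧
    (∀ (a : Ω) (g : G), ∃ n ∈ N, g * n ∈ MulAction.stabilizer G a) ∧
    (∀ a : Ω, ¬ N ≤ MulAction.stabilizer G a) := by
  have hfix : MulAction.fixedPoints N Ω ≠ Set.univ := by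
    intro h
    apply hN
    rw [eq_bot_iff]
    intro x hx
    rw [Subgroup.mem_bot]
    apply Subtype.ext
    apply Equiv.ext
    intro y
    have hy : y ∈ MulAction.fixedPoints N Ω := by rw [h]; exact Set.mem_univ y
    exact hy ⟨x, hx⟩
  have htr : MulAction.IsPretransitive N Ω :=
    MulAction.IsQuasiPreprimitive.isPretransitive_of_normal hfix
  refine ⟨htr, fun a g => ?_, fun a h => ?_⟩
  · obtain ⟨n, hn⟩ := MulAction.exists_smul_eq N a (g⁻¹ • a)
    refine ⟨n, n.2, ?_⟩
    rw [MulAction.mem_stabilizer_iff, mul_smul]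
    change g • (n • a) = a
    rw [hn, smul_inv_smul]
  · apply hfix
    rw [Set.eq_univ_iff_forall]
    intro y n
    obtain ⟨n', rfl⟩ := MulAction.exists_smul_eq N a y
    have h1 : (n'⁻¹ * n * n') • a = a := h (n'⁻¹ * n * n' : N).2
    rw [mul_smul, mul_smul, inv_smul_eq_iff] at h1
    exact h1

theorem exists_min_normal {G : Type*} [Group G] [Finite G] [Nontrivial G] :
    ∃ N : Subgroup G, N.Normal ∧ N ≠ ⊥ ∧
      ∀ M : Subgroup G, M.Normal → M ≤ N → M = ⊥ ∨ M = N := by
  obtain ⟨N, -, h1, h2, h3⟩ := Cfsg.Agent.Lib.MinNormal.exists_minimal_normal_le (⊤ : Subgroup G)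
    top_ne_bot
  refine ⟨N, Subgroup.normalizer_eq_top_iff.mp (top_le_iff.mp h2), h1, fun M hM hMN => ?_⟩
  exact h3 M hMN (by rw [Subgroup.normalizer_eq_top_iff.mpr hM])

/-- The abelian case. -/
theorem prim_abelian {Ω : Type*} [Finite Ω] (G : Subgroup (Perm Ω))
    (hG : MulAction.IsPreprimitive G Ω) (N : Subgroup G) [N.Normal] (hN : N ≠ ⊥)
    (hmin : ∀ M : Subgroup G, M.Normal → M ≤ N → M = ⊥ ∨ M = N)
    (hab : ∀ x ∈ N, ∀ y ∈ N, Commute x y) (a : Ω) :
    ∃ p d : ℕ, p.Prime ∧ 0 < d ∧ Nat.card Ω = p ^ d ∧ Nat.card N = p ^ d ∧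
      (∀ x ∈ N, x ^ p = 1) ∧ (MulAut.conjNormal : G →* MulAut N).ker = N ∧ 
      Nat.card (MulAut N) = ∏ i : Fin d, (p ^ d - p ^ (i : ℕ)) := by
  have hab' : IsMulCommutative N := ⟨⟨fun x y => Subtype.ext (hab x x.2 y y.2)⟩⟩
  obtain ⟨htr, -, -⟩ := prim_facts G hG N hN
  obtain ⟨hcent, hst, ⟨p, hp, hexp⟩, -⟩ := Cfsg.Agent.S0703.result G N hN hmin hab' htr
  have : Fact p.Prime := ⟨hp⟩
  have hcard : Nat.card N = Nat.card Ω := by
    rw [← MulAction.index_stabilizer_of_transitive N a, hst a, Subgroup.index_bot]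
  have hpg : IsPGroup p N := fun x => ⟨1, by
    rw [pow_one]
    exact Subtype.ext (hexp x x.2)⟩
  obtain ⟨d, hd⟩ := IsPGroup.iff_card.mp hpg
  have hd0 : 0 < d := by
    rcases Nat.eq_zero_or_pos d with h | h
    · exfalso
      apply hN
      rw [h, pow_zero] at hd
      exact Subgroup.card_eq_one.mp hd
    · exact h
  refine ⟨p, d, hp, hd0, by rw [← hcard, hd], hd, hexp, ?_, ?_⟩
  · apply le_antisymm
    · intro g hg
      have h1 : (g : Perm Ω) ∈ N.map G.subtype := by
        rw [← hcent, Subgroup.mem_centralizer_iff]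
        rintro _ ⟨n, hn, rfl⟩
        rw [MonoidHom.mem_ker] at hg
        have h2 := congrArg (fun φ : MulAut N => ((φ ⟨n, hn⟩ : N) : G)) hg
        simp only [MulAut.conjNormal_apply, MulAut.one_apply] at h2
        have h3 : g * n = n * g := by
          calc g * n = (g * n * g⁻¹) * g := by group
            _ = n * g := by rw [h2]
        have h4 := congrArg (fun z : G => (z : Perm Ω)) h3
        simpa using h4.symm
      obtain ⟨n, hn, hng⟩ := h1
      have : n = g := Subtype.ext hng
      exact this ▸ hn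
    · intro g hg
      rw [MonoidHom.mem_ker]
      ext x
      simp only [MulAut.conjNormal_apply, MulAut.one_apply]
      rw [(hab g hg x x.2).eq]
      simp
  · exact card_mulAut (V := N) (fun x y => Subtype.ext (hab x x.2 y y.2))
      (fun x => Subtype.ext (hexp x x.2)) hd

theorem clen_pi_le {m : ℕ} {G : Type*} [Group G] [Finite G] (T : Fin m → Subgroup G)
    (hT : ∀ i, IsSimpleGroup (T i)) : clen (∀ i, T i) ≤ m := by
  have h1 := clen_le_sum (G := ∀ i, T i) Finset.univ (fun i => Pi.evalMonoidHom (fun i => T i) i)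
    (fun g hg => funext fun i => hg i (Finset.mem_univ i))
  refine h1.trans ?_
  calc ∑ i, clen (Pi.evalMonoidHom (fun i => T i) i).range ≤ ∑ _i : Fin m, 1 := by
        apply Finset.sum_le_sum
        intro i _
        classical
        have h2 : (Pi.evalMonoidHom (fun i => T i) i).range = ⊤ := by
          rw [MonoidHom.range_eq_top]
          exact Function.surjective_eval i
        rw [h2, clen_of_top]
        have := hT i
        rw [clen_of_simple]
    _ = m := by simp

theorem clen_second_iso {G : Type*} [Group G] [Finite G] (N K H : Subgroup G) [N.Normal]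
    (hNK : N ≤ K) (hKH : ∀ k ∈ K, ∃ n ∈ N, k * n ∈ H) :
    clen K + clen (N ⊓ H : Subgroup G) = clen N + clen (K ⊓ H : Subgroup G) := by
  have h1 := clen_subgroup N K hNK
  let f : (K ⊓ H : Subgroup G) →* K ⧸ N.subgroupOf K :=
    (QuotientGroup.mk' (N.subgroupOf K)).comp (Subgroup.inclusion inf_le_left)
  have hf : Function.Surjective f := by
    intro x
    obtain ⟨k, rfl⟩ := QuotientGroup.mk'_surjective _ x
    obtain ⟨n, hn, hkn⟩ := hKH k k.2
    refine ⟨⟨k * n, K.mul_mem k.2 (hNK hn), hkn⟩, ?_⟩
    change QuotientGroup.mk' (N.subgroupOf K) _ = _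
    rw [QuotientGroup.mk'_eq_mk']
    refine ⟨⟨n⁻¹, hNK (N.inv_mem hn)⟩, ?_, ?_⟩
    · exact N.inv_mem hn
    · apply Subtype.ext
      change (k : G) * n * n⁻¹ = k
      group
  have h2 := clen_of_surjective f hf
  have e : f.ker ≃* (N ⊓ H : Subgroup G) :=
    { toFun := fun x => ⟨x.1.1, by
        have := x.2
        rw [MonoidHom.mem_ker] at this
        have h3 : (⟨x.1.1, x.1.2.1⟩ : K) ∈ N.subgroupOf K :=
          (QuotientGroup.eq_one_iff _).mp this
        exact h3, x.1.2.2⟩
      invFun := fun x => ⟨⟨x.1, hNK x.2.1, x.2.2⟩, by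
        rw [MonoidHom.mem_ker]
        exact (QuotientGroup.eq_one_iff _).mpr x.2.1⟩
      left_inv := fun x => rfl
      right_inv := fun x => rfl
      map_mul' := fun x y => rfl }
  rw [clen_congr e] at h2
  omega

/-- the numbers of invariants for the intersection of the kernel on the factors with a point
stabiliser -/
theorem inv_factors {Ω : Type v} [Finite Ω] {n : ℕ} (hB : Bd.{v} (n - 1)) (hn : Nat.card Ω = n)
    (G : Subgroup (Perm Ω)) (N : Subgroup G) [N.Normal] (a : Ω) {m : ℕ} {T : Fin m → Subgroup G}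
    {e : N ≃* (∀ i, T i)} (h : Fac N m T e) (I : Set (Fin m)) (hI : I.Nonempty) (q : ℕ)
    (hq : 2 ≤ q) (cls : ∀ i, T i → Fin q) (hsurj : ∀ i, Function.Surjective (cls i))
    (hq0 : ∀ i (t : T i), (t : G) ∈ MulAction.stabilizer G a → cls i t = ⟨0, by omega⟩)
    (hcos : ∀ i, i ∈ I → ∀ (t s : T i), ((t⁻¹ * s : T i) : G) ∈ MulAction.stabilizer G a →
      cls i t = cls i s)
    (hconj : ∀ i (k : G) (t : T i) (_ : k ∈ MulAction.stabilizer G a)
      (ht : k * (t : G) * k⁻¹ ∈ T i), cls i ⟨k * (t : G) * k⁻¹, ht⟩ = cls i t)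
    (hU : ∀ n : N, (∀ i, i ∉ I → e n i = 1) → (n : G) ∈ MulAction.stabilizer G a →
      ∀ i, ((e n i : T i) : G) ∈ MulAction.stabilizer G a) :
    3 * clen (h.perm.ker ⊓ MulAction.stabilizer G a : Subgroup G) + 4 * (q ^ Nat.card I - 1) ≤
      4 * (n - 1) := by
  classical
  set H := MulAction.stabilizer G a with hH
  let K₀ : Subgroup (Perm Ω) := (h.perm.ker ⊓ H : Subgroup G).map G.subtype
  have hcl : clen K₀ = clen (h.perm.ker ⊓ H : Subgroup G) :=
    (clen_congr ((h.perm.ker ⊓ H : Subgroup G).equivMapOfInjective G.subtype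
      G.subtype_injective)).symm
  have hact : ∀ g : G, g ∈ H ↔ (g : Perm Ω) a = a := fun g => MulAction.mem_stabilizer_iff
  let X := {x : (∀ i, T i) // ∀ i, i ∉ I → x i = 1}
  let Φ : X → Ω := fun x => (((e.symm x.1 : N) : G) : Perm Ω) a
  let cl : X → (I → Fin q) := fun x i => cls i (x.1 i)
  -- equality of points
  have hΦ : ∀ x y : X, Φ x = Φ y ↔ ((e.symm (x.1⁻¹ * y.1) : N) : G) ∈ H := by
    intro x y
    rw [hact, map_mul, map_inv, Subgroup.coe_mul, Subgroup.coe_inv, Subgroup.coe_mul,
      Subgroup.coe_inv, Perm.mul_apply, Perm.inv_eq_iff_eq]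
    exact eq_comm
  have hb := inv_bound hB hn a K₀ (by
    rintro _ ⟨g, hg, rfl⟩
    exact (hact g).mp hg.2) Φ cl (fun _ => ⟨0, by omega⟩) (by
    obtain ⟨i, hi⟩ := hI
    refine ⟨fun _ => ⟨1, by omega⟩, fun h => ?_⟩
    have := congrArg Fin.val (congrFun h ⟨i, hi⟩)
    simp at this) (by
    intro v
    choose t ht using fun i : I => hsurj i (v i)
    refine ⟨⟨fun i => if hi : i ∈ I then t ⟨i, hi⟩ else 1, fun i hi => dif_neg hi⟩, ?_⟩
    funext i
    change cls i (if hi : (i : Fin m) ∈ I then t ⟨i, hi⟩ else 1) = v i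
    rw [dif_pos i.2]
    exact ht i) (by
    intro x hx
    have h1 : ((e.symm x.1 : N) : G) ∈ H := (hact _).mpr hx
    have h2 := hU (e.symm x.1) (fun i hi => by
      rw [MulEquiv.apply_symm_apply]; exact x.2 i hi) h1
    funext i
    apply hq0
    have := h2 i
    rwa [MulEquiv.apply_symm_apply] at this) (by
    intro x y hxy
    rw [hΦ] at hxy
    have h2 := hU (e.symm (x.1⁻¹ * y.1)) (fun i hi => by
      rw [MulEquiv.apply_symm_apply, Pi.mul_apply, Pi.inv_apply, x.2 i hi, y.2 i hi]; simp) hxy
    funext i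
    apply hcos i i.2
    have := h2 i
    rwa [MulEquiv.apply_symm_apply] at this) (by
    rintro _ ⟨k, hk, rfl⟩ x
    have hk1 := (h.mem_ker_perm k).mp hk.1
    refine ⟨⟨e (Fac.cj N k (e.symm x.1)), fun i hi => ?_⟩, ?_, ?_⟩
    · apply Subtype.ext
      rw [h.conj_coord hk1, MulEquiv.apply_symm_apply, x.2 i hi]
      simp
    · change (((e.symm (e (Fac.cj N k (e.symm x.1))) : N) : G) : Perm Ω) a =
        (k : Perm Ω) ((((e.symm x.1 : N) : G) : Perm Ω) a)
      rw [MulEquiv.symm_apply_apply]
      change ((k * ((e.symm x.1 : N) : G) * k⁻¹ : G) : Perm Ω) a = _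
      have h3 : ((k⁻¹ : G) : Perm Ω) a = a := (hact _).mp (H.inv_mem hk.2)
      rw [Subgroup.coe_mul, Perm.mul_apply, h3, Subgroup.coe_mul, Perm.mul_apply]
    · funext i
      change cls i (e (Fac.cj N k (e.symm x.1)) i) = cls i (x.1 i)
      have h4 := h.conj_coord hk1 (e.symm x.1) i
      rw [MulEquiv.apply_symm_apply] at h4
      have h5 : k * (x.1 i : G) * k⁻¹ ∈ T i := by rw [← h4]; exact (e _ _).2
      rw [← hconj i k (x.1 i) hk.2 h5]
      congr 1
      exact Subtype.ext h4)
  rw [hcl] at hb
  have hV : Nat.card (I → Fin q) = q ^ Nat.card I := by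
    rw [Nat.card_fun]
    simp
  rwa [hV] at hb

/-- The primitive case. -/
theorem prim_bd (n : ℕ) (IH : ∀ n' < n, Bd.{v} n') (Ω : Type v) [Finite Ω] (G : Subgroup (Perm Ω))
    (hG : MulAction.IsPreprimitive G Ω) (hn : Nat.card Ω = n) (h0 : 0 < n) :
    3 * clen G + 4 ≤ 4 * n := by
  classical
  by_cases hnt : Subsingleton G
  · rw [clen_of_subsingleton]
    omega
  rw [not_subsingleton_iff_nontrivial] at hnt
  obtain ⟨N, hNn, hN, hmin⟩ := exists_min_normal (G := G)
  have hΩ : Nonempty Ω := by
    by_contra h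
    rw [not_nonempty_iff] at h
    rw [Nat.card_of_isEmpty] at hn
    omega
  obtain ⟨a⟩ := hΩ
  by_cases hab : ∀ x ∈ N, ∀ y ∈ N, Commute x y
  · -- abelian
    obtain ⟨p, d, hp, hd, hnd, hNd, -, hker, hcard⟩ := prim_abelian G hG N hN hmin hab a
    have h1 := clen_range (MulAut.conjNormal : G →* MulAut N)
    rw [hker] at h1
    have h2 : clen N ≤ d := by
      have := clen_le_cardFactors (G := N)
      rwa [hNd, cardFactors_apply_prime_pow hp] at this
    have h3 := clen_le_cardFactors (G := (MulAut.conjNormal : G →* MulAut N).range)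
    have h4 := num_abelian p d _ (Nat.card (MulAut.conjNormal : G →* MulAut N).range) hp hd
      (by rw [← hcard]; exact Subgroup.card_subgroup_dvd_card _) h3
    rw [← hnd, hn] at h4
    omega
  · -- non-abelian
    obtain ⟨m, T, e, h⟩ := exists_fac N hmin hab
    obtain ⟨htr, hKN, hNK⟩ := prim_facts G hG N hN
    set H := MulAction.stabilizer G a with hH
    have hsc := h.scott H (hKN a) (hNK a)
      (fun X hX hKX hinv => Cfsg.Agent.S0722.result G N hN hmin a X hX hKX hinv)
    have hm := h.pos
    -- additivity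
    have c1 := clen_range h.perm
    have c2 := clen_second_iso N h.perm.ker H h.le_ker_perm (fun k _ => hKN a k)
    have c3 : clen N ≤ m := by
      rw [clen_congr e]
      exact clen_pi_le T h.simple
    -- transitivity of `H` on the factors
    have htrans : ∀ i j, ∃ k ∈ H, T j = (T i).map (MulAut.conj k).toMonoidHom := by
      intro i j
      obtain ⟨g, hg⟩ := h.trans i j
      obtain ⟨n, hn, hgn⟩ := hKN a g
      refine ⟨g * n, hgn, ?_⟩
      have h1 : (T i).map (MulAut.conj n).toMonoidHom = T i :=
        Subgroup.mem_normalizer_iff_map_conj_eq.mp (h.norm i hn)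
      rw [← Cfsg.Agent.Lib.MinNormal.map_conj_map_conj, h1, hg]
    rcases hsc with hA | ⟨c, hcc, hc2, hc3, hc4⟩
    · -- case A
      have hTH : ∀ i, ∃ t : T i, (t : G) ∉ H := by
        by_contra hcon
        push Not at hcon
        obtain ⟨i, hi⟩ := hcon
        apply hNK a
        intro n hn
        have h1 := (hA ⟨n, hn⟩).mpr (by
          intro j
          obtain ⟨k, hk, hkj⟩ := htrans i j
          obtain ⟨s, hs, hsn⟩ := (SetLike.ext_iff.mp hkj _).mp (e ⟨n, hn⟩ j).2
          rw [← hsn]
          exact H.mul_mem (H.mul_mem hk (hi ⟨s, hs⟩)) (H.inv_mem hk))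
        exact h1
      have hb := inv_factors (IH (n - 1) (by omega)) hn G N a h Set.univ ⟨⟨0, hm⟩, trivial⟩ 2
        le_rfl (fun i t => if (t : G) ∈ H then 0 else 1) (by
          intro i v
          obtain ⟨t, ht⟩ := hTH i
          fin_cases v
          · exact ⟨1, if_pos H.one_mem⟩
          · exact ⟨t, if_neg ht⟩) (by
          intro i t ht
          exact if_pos ht) (by
          intro i _ t s hts
          have : (t : G) ∈ H ↔ (s : G) ∈ H := by
            constructor
            · intro h1
              have := H.mul_mem h1 hts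
              simpa using this
            · intro h1
              have := H.mul_mem h1 (H.inv_mem hts)
              simpa using this
          simp only [this]) (by
          intro i k t hk ht
          have : k * (t : G) * k⁻¹ ∈ H ↔ (t : G) ∈ H := by
            constructor
            · intro h1
              have := H.mul_mem (H.mul_mem (H.inv_mem hk) h1) hk
              simpa [mul_assoc] using this
            · intro h1
              exact H.mul_mem (H.mul_mem hk h1) (H.inv_mem hk)
          simp only [this]) (by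
          intro n' _ hn'
          exact (hA n').mp hn')
      have hu : Nat.card (Set.univ : Set (Fin m)) = m := by simp
      rw [hu, ← hH] at hb
      have h7 := num_two m
      have h8 : m < 2 ^ m := Nat.lt_two_pow_self
      have b3 := (IH m (by omega)).homU h.perm (ι := Unit) (fun _ => ()) (by
        intro i
        exact ⟨⟨0, hm⟩, rfl⟩) (fun _ _ => rfl) (by simp)
      rw [Nat.card_unique] at b3
      omega
    · -- case B
      let I : Set (Fin m) := {i | c i ≠ i}
      have hcI : ∀ i, c i ∉ I := fun i hi => hi (hcc i)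
      -- the size of `I`
      have hIm : m ≤ 2 * Nat.card I := by
        choose f hf1 hf2 using hc2
        have h1 : Nat.card {i // i ∉ I} ≤ Nat.card I := by
          refine Nat.card_le_card_of_injective
            (fun r : {i // i ∉ I} => (⟨f r, fun h => hf1 r ?_⟩ : I)) ?_
          · rw [← h, hf2]
            exact not_not.mp r.2
          · intro r s hrs
            have h2 : f r = f s := congrArg Subtype.val hrs
            apply Subtype.ext
            have h3 : c (r : Fin m) = c (s : Fin m) := by rw [← hf2 r, ← hf2 s, h2]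
            have h4 : c (r : Fin m) = r := not_not.mp r.2
            have h5 : c (s : Fin m) = s := not_not.mp s.2
            rw [← h4, ← h5, h3]
        have h2 : Nat.card I + Nat.card {i // i ∉ I} = m := by
          rw [← Nat.card_sum, Nat.card_congr (Equiv.sumCompl (fun i => i ∈ I))]
          simp
        omega
      have hIne : I.Nonempty := by
        rw [Set.nonempty_iff_ne_empty]
        intro hI
        rw [hI] at hIm
        simp at hIm
        omega
      -- elements of `H` supported on `I` are trivial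
      have hone : ∀ n' : N, (∀ i, i ∉ I → e n' i = 1) → (n' : G) ∈ H → n' = 1 :=
        fun n' h1 h2 => hc3 n' h2 fun i => h1 _ (hcI i)
      have hTH : ∀ i, i ∈ I → ∀ t : T i, (t : G) ∈ H → t = 1 := by
        intro i hi t ht
        have h1 := hone (e.symm (Pi.mulSingle i t)) (by
          intro j hj
          rw [MulEquiv.apply_symm_apply, Pi.mulSingle_eq_of_ne]
          rintro rfl
          exact hj hi) (by rw [h.single]; exact ht)
        have h2 := h.single i t
        rw [h1] at h2
        exact Subtype.ext h2.symm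
      -- every factor meets `H` trivially
      have hTH' : ∀ i, ∀ t : T i, (t : G) ∈ H → t = 1 := by
        intro i t ht
        obtain ⟨i₀, hi₀⟩ := hIne
        obtain ⟨k, hk, hkj⟩ := htrans i i₀
        have h1 : k * (t : G) * k⁻¹ ∈ T i₀ := by rw [hkj]; exact ⟨t, t.2, rfl⟩
        have h2 := hTH i₀ hi₀ ⟨_, h1⟩ (H.mul_mem (H.mul_mem hk ht) (H.inv_mem hk))
        have h3 : k * (t : G) * k⁻¹ = 1 := congrArg Subtype.val h2
        apply Subtype.ext
        have h4 : (t : G) = k⁻¹ * (k * (t : G) * k⁻¹) * k := by group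
        rw [h4, h3]
        simp
      -- primes
      have hpr : ∀ i, ∃ p : ℕ, (∃ t : T i, t ≠ 1 ∧ orderOf t = p) ∧
          ∃ t : T i, t ≠ 1 ∧ orderOf t ≠ p := by
        intro i
        have := h.simple i
        have hne : Nat.card (T i) ≠ 1 := by
          intro h1
          have h2 := (Nat.card_eq_one_iff_unique.mp h1).1
          exact not_subsingleton (T i) h2
        obtain ⟨p, hp, hpd⟩ := Nat.exists_prime_and_dvd hne
        have : Fact p.Prime := ⟨hp⟩
        obtain ⟨t, ht⟩ := exists_prime_orderOf_dvd_card' (G := T i) p hpd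
        refine ⟨p, ⟨t, ?_, ht⟩, ?_⟩
        · rintro rfl
          rw [orderOf_one] at ht
          exact hp.one_lt.ne ht
        · by_contra hcon
          push Not at hcon
          have hpg : IsPGroup p (T i) := by
            intro s
            by_cases hs : s = 1
            · exact ⟨0, by rw [hs, one_pow]⟩
            · exact ⟨1, by rw [pow_one, ← hcon s hs, pow_orderOf_eq_one]⟩
          have hz : Nontrivial (Subgroup.center (T i)) := hpg.center_nontrivial
          obtain ⟨x, y, hxy⟩ := h.nonab i
          rcases (inferInstance : (Subgroup.center (T i)).Normal).eq_bot_or_eq_top with h1 | h1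
          · rw [h1] at hz
            exact not_subsingleton (⊥ : Subgroup (T i)) inferInstance
          · apply hxy
            have h2 : x ∈ Subgroup.center (T i) := by rw [h1]; exact mem_top x
            exact (Subgroup.mem_center_iff.mp h2 y).symm
      choose p hp1 hp2 using hpr
      have hb := inv_factors (IH (n - 1) (by omega)) hn G N a h I hIne 3
        (by norm_num) (fun i t => if t = 1 then 0 else if orderOf t = p i then 1 else 2) (by
          intro i v
          obtain ⟨t, ht1, ht2⟩ := hp1 i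
          obtain ⟨s, hs1, hs2⟩ := hp2 i
          fin_cases v
          · exact ⟨1, if_pos rfl⟩
          · exact ⟨t, by simp only [if_neg ht1, if_pos ht2]; rfl⟩
          · exact ⟨s, by simp only [if_neg hs1, if_neg hs2]; rfl⟩) (by
          intro i t ht
          rw [if_pos (hTH' i t ht)]
          rfl) (by
          intro i hi t s hts
          have h1 := hTH i hi _ hts
          have h2 : t = s := (inv_mul_eq_one.mp h1)
          rw [h2]) (by
          intro i k t hk ht
          have h1 : orderOf (⟨k * (t : G) * k⁻¹, ht⟩ : T i) = orderOf t := by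
            rw [← Subgroup.orderOf_coe, ← Subgroup.orderOf_coe t]
            exact orderOf_injective (MulAut.conj k).toMonoidHom (MulAut.conj k).injective (t : G)
          have h2 : (⟨k * (t : G) * k⁻¹, ht⟩ : T i) = 1 ↔ t = 1 := by
            rw [← orderOf_eq_one_iff, h1, orderOf_eq_one_iff]
          simp only [h1, h2]) (by
          intro n' h1 h2 i
          rw [hone n' h1 h2, map_one]
          exact H.one_mem)
      -- `N ⊓ H` is not trivial
      have hNH : 0 < clen (N ⊓ H : Subgroup G) := by
        obtain ⟨x, y, hxy⟩ := h.nonab (c ⟨0, hm⟩)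
        obtain ⟨n', hn', hn''⟩ := hc4 (Pi.mulSingle (c ⟨0, hm⟩) x)
        obtain ⟨n₂, hn₂, hn₂'⟩ := hc4 (Pi.mulSingle (c ⟨0, hm⟩) y)
        have h1 := hn'' ⟨0, hm⟩
        have h2 := hn₂' ⟨0, hm⟩
        rw [Pi.mulSingle_eq_same] at h1 h2
        have : Nontrivial (N ⊓ H : Subgroup G) := by
          refine ⟨⟨(⟨(n' : G), n'.2, hn'⟩ : (N ⊓ H : Subgroup G)), ⟨(n₂ : G), n₂.2, hn₂⟩,
            fun h3 => hxy ?_⟩⟩
          have h4 : (n' : G) = n₂ := congrArg (fun z : (N ⊓ H : Subgroup G) => (z : G)) h3
          have h5 : n' = n₂ := Subtype.ext h4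
          rw [← h1, ← h2, h5]
        exact clen_pos
      rw [← hH] at hb
      have h7 := num_three m _ hIm
      have h8 := lt_three_pow m _ hIm
      have b3 := (IH m (by omega)).homU h.perm (ι := Unit) (fun _ => ()) (by
        intro i
        exact ⟨⟨0, hm⟩, rfl⟩) (fun _ _ => rfl) (by simp)
      rw [Nat.card_unique] at b3
      omega

theorem bd_all (n : ℕ) : Bd.{v} n := bd_of_prim prim_bd n

/-- A permutation representation of a finite group with `r` orbits on a finite set. -/
theorem clen_action_le {G Ω : Type*} [Group G] [Finite G] [Finite Ω] (φ : G →* Perm Ω)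
    {ι : Type*} [Finite ι] (F : Ω → ι) (hF : Function.Surjective F)
    (hinv : ∀ k x, F (φ k x) = F x) :
    3 * clen φ.range + 4 * Nat.card ι ≤ 4 * Nat.card Ω :=
  (bd_all.{0} (Nat.card Ω)).homU φ F hF hinv rfl

end Cfsg.Agent.H893
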