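import Cfsg.Agent.H893.PrimMain
import Cfsg.Agent.BpSpor.SylowData
import Cfsg.Agent.S0713
import Cfsg.Agent.S0144

/-!
# Primitive groups of degree at most 13 with a simple normal subgroup

`small_degree` : `X` primitive of degree at most `13`, `S` a non-abelian simple normal subgroup of
`X`: `clen (X ⧸ S) ≤ 2`, and `clen (X ⧸ S) ≤ 1` if the degree is at most `8`.
-/

set_option autoImplicit false

namespace Cfsg.Agent.H893

open Subgroup Equiv ArithmeticFunction

section general

variable {X : Type*} [Group X] [Finite X]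

/-- Frattini argument with a Sylow subgroup of prime order -/
theorem quot_card (S : Subgroup X) [S.Normal] (hperf : commutator S = ⊤) {r : ℕ} [hr : Fact r.Prime]
    (hr2 : ¬ r ^ 2 ∣ Nat.card S) {x : X} (hx : x ∈ S) (hxr : orderOf x = r) :
    ∃ j k, Nat.card (X ⧸ S) * (Nat.card (centralizer ({x} : Set X) ⊓ S : Subgroup X) * k) =
      Nat.card (centralizer ({x} : Set X)) * j ∧ j ∣ r - 1 ∧ 2 ≤ k := by
  set C := centralizer ({x} : Set X) with hC
  set N := normalizer (zpowers x : Set X) with hN
  have hCz : centralizer (zpowers x : Set X) = C := BpSpor.SylowData.centralizer_zpowers x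
  have hCN : C ≤ N := by
    rw [← hCz]
    exact centralizer_le_normalizer _
  -- Frattini
  have hx' : orderOf (⟨x, hx⟩ : S) = r := by
    rw [← hxr]
    exact (Subgroup.orderOf_mk x hx)
  obtain ⟨P, hP⟩ := BpSpor.SylowData.exists_sylow hr2 hx'
  have hNS : N ⊔ S = ⊤ := by
    have h1 := P.normalizer_sup_eq_top
    rw [hP, MonoidHom.map_zpowers] at h1
    exact h1
  have h1 : Nat.card (X ⧸ S) * Nat.card (N ⊓ S : Subgroup X) = Nat.card N := by
    have h2 : S.relIndex N = Nat.card (X ⧸ S) := by
      rw [← Subgroup.relIndex_sup_right, hNS, Subgroup.relIndex_top_right]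
      rfl
    rw [← h2, mul_comm, inf_comm]
    have h3 := (S.subgroupOf N).card_mul_index
    have h4 : Nat.card (S.subgroupOf N) = Nat.card (S ⊓ N : Subgroup X) := by
      rw [← Subgroup.inf_subgroupOf_right]
      exact Nat.card_congr (subgroupOfEquivOfLe inf_le_right).toEquiv
    rw [h4] at h3
    exact h3
  -- `C` and `N`
  have h2 : Nat.card C * C.relIndex N = Nat.card N := by
    have h1 := (C.subgroupOf N).card_mul_index
    rwa [Nat.card_congr (subgroupOfEquivOfLe hCN).toEquiv] at h1
  have h3 : Nat.card (C ⊓ S : Subgroup X) * (C ⊓ S : Subgroup X).relIndex (N ⊓ S) =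
      Nat.card (N ⊓ S : Subgroup X) := by
    have hle : C ⊓ S ≤ N ⊓ S := inf_le_inf_right S hCN
    have h1 := ((C ⊓ S : Subgroup X).subgroupOf (N ⊓ S)).card_mul_index
    rwa [Nat.card_congr (subgroupOfEquivOfLe hle).toEquiv] at h1
  refine ⟨C.relIndex N, (C ⊓ S : Subgroup X).relIndex (N ⊓ S), ?_, ?_, ?_⟩
  · rw [h3, h1, h2]
  · have hker : (normalizerMonoidHom (zpowers x)).ker = C.subgroupOf N := by
      rw [normalizerMonoidHom_ker, hCz]
    have h5 : C.relIndex N = Nat.card (normalizerMonoidHom (zpowers x)).range := by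
      rw [← index_ker, hker]
      rfl
    rw [h5]
    have h6 : Nat.card (MulAut ↥(zpowers x)) = r - 1 := by
      rw [IsCyclic.card_mulAut, Nat.card_zpowers, hxr, Nat.totient_prime hr.out]
    rw [← h6]
    exact card_subgroup_dvd_card _
  · have hne0 : (C ⊓ S : Subgroup X).relIndex (N ⊓ S) ≠ 0 := Subgroup.index_ne_zero_of_finite
    have hne1 : (C ⊓ S : Subgroup X).relIndex (N ⊓ S) ≠ 1 := by
      intro h
      rw [relIndex_eq_one] at h
      apply BpSpor.SylowData.not_le hperf hr2 hx'
      intro g hg
      have hg' := mem_normalizer_iff.mp hg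
      have hgN : (g : X) ∈ N := by
        rw [hN, mem_normalizer_iff]
        intro y
        constructor
        · intro hy
          have hyS : y ∈ S := (zpowers_le.mpr hx) hy
          have h2 : (⟨y, hyS⟩ : S) ∈ zpowers (⟨x, hx⟩ : S) := by
            obtain ⟨i, hi⟩ := hy
            exact ⟨i, Subtype.ext hi⟩
          obtain ⟨i, hi⟩ := (hg' ⟨y, hyS⟩).mp h2
          exact ⟨i, congrArg Subtype.val hi⟩
        · intro hy
          have hyS : y ∈ S := by
            have h3 : (g : X) * y * (g : X)⁻¹ ∈ S := (zpowers_le.mpr hx) hy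
            have h4 := S.mul_mem (S.mul_mem (S.inv_mem g.2) h3) g.2
            simpa [mul_assoc] using h4
          have h2 : g * (⟨y, hyS⟩ : S) * g⁻¹ ∈ zpowers (⟨x, hx⟩ : S) := by
            obtain ⟨i, hi⟩ := hy
            exact ⟨i, Subtype.ext hi⟩
          obtain ⟨i, hi⟩ := (hg' ⟨y, hyS⟩).mpr h2
          exact ⟨i, congrArg Subtype.val hi⟩
      have h3 : (g : X) ∈ C := (h ⟨hgN, g.2⟩).1
      rw [hC, mem_centralizer_singleton_iff] at h3
      rw [mem_centralizer_singleton_iff]
      exact Subtype.ext h3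
    omega

end general

section perms

variable {Ω : Type*} [Fintype Ω] [DecidableEq Ω]

theorem alt_case (X : Subgroup (Perm Ω)) (S : Subgroup X) [S.Normal] [IsSimpleGroup S]
    (hna : ∃ a b : S, a * b ≠ b * a) (h5 : 5 ≤ Fintype.card Ω) (hX : alternatingGroup Ω ≤ X) :
    Nat.card (X ⧸ S) ≤ 2 := by
  have hsimple : IsSimpleGroup (alternatingGroup Ω) :=
    alternatingGroup.isSimpleGroup (by rwa [Nat.card_eq_fintype_card])
  -- `S` consists of even permutations
  let f : S →* ℤˣ := (Perm.sign.comp X.subtype).comp S.subtype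
  have hS : ∀ s : S, Perm.sign ((s : X) : Perm Ω) = 1 := by
    rcases (inferInstance : f.ker.Normal).eq_bot_or_eq_top with h | h
    · exfalso
      obtain ⟨a, b, hab⟩ := hna
      apply hab
      apply (MonoidHom.ker_eq_bot_iff f).mp h
      rw [map_mul, map_mul, mul_comm]
    · intro s
      have : s ∈ f.ker := by rw [h]; exact mem_top s
      exact this
  let S' : Subgroup (alternatingGroup Ω) :=
    (S.map X.subtype).subgroupOf (alternatingGroup Ω)
  have hS'n : S'.Normal := by
    refine ⟨?_⟩
    rintro n ⟨s, hs, hsn⟩ g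
    refine ⟨⟨g, hX g.2⟩ * s * ⟨g, hX g.2⟩⁻¹,
      (inferInstance : S.Normal).conj_mem s hs _, ?_⟩
    have h1 : ((s : X) : Perm Ω) = n := hsn
    change (g : Perm Ω) * (s : Perm Ω) * (g : Perm Ω)⁻¹ = (g : Perm Ω) * (n : Perm Ω) * (g : Perm Ω)⁻¹
    rw [h1]
  have hle : Nat.card (alternatingGroup Ω) ≤ Nat.card S := by
    rcases hS'n.eq_bot_or_eq_top with h | h
    · exfalso
      obtain ⟨a, b, hab⟩ := hna
      have hone : ∀ s : S, s = 1 := by
        intro s
        have h1 : (⟨((s : X) : Perm Ω), Perm.mem_alternatingGroup.mpr (hS s)⟩ :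
            alternatingGroup Ω) ∈ S' := ⟨s, s.2, rfl⟩
        rw [h, mem_bot] at h1
        apply Subtype.ext
        apply Subtype.ext
        exact congrArg (fun z : alternatingGroup Ω => (z : Perm Ω)) h1
      exact hab (by rw [hone a, hone b])
    · have h1 : ∀ g : alternatingGroup Ω, ∃ s : S, ((s : X) : Perm Ω) = g := by
        intro g
        have : g ∈ S' := by rw [h]; exact mem_top g
        obtain ⟨s, hs, hsg⟩ := this
        exact ⟨⟨s, hs⟩, hsg⟩
      choose F hF using h1
      exact Nat.card_le_card_of_injective F fun a b hab => Subtype.ext (by rw [← hF a, ← hF b, hab])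
  have hnt : Nontrivial Ω := by
    rw [← Fintype.one_lt_card_iff_nontrivial]
    omega
  have h2 : 2 * Nat.card (alternatingGroup Ω) = Nat.card (Perm Ω) := by
    rw [Nat.card_eq_fintype_card, Nat.card_eq_fintype_card]
    exact two_mul_card_alternatingGroup
  have h3 : Nat.card X ≤ Nat.card (Perm Ω) := Nat.card_le_card_of_injective _ X.subtype_injective
  have h4 : Nat.card X = Nat.card (X ⧸ S) * Nat.card S := Subgroup.card_eq_card_quotient_mul_card_subgroup S
  have h5 : 0 < Nat.card (alternatingGroup Ω) := Nat.card_pos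
  by_contra hcon
  push Not at hcon
  have h6 : 3 * Nat.card S ≤ Nat.card (X ⧸ S) * Nat.card S := Nat.mul_le_mul_right _ hcon
  omega

/-- An element commuting with a cycle which moves all but at most two points -/
theorem comm_cycle (X : Subgroup (Perm Ω)) (hX : MulAction.IsPreprimitive X Ω)
    (hnt : X ≠ ⊤) {x : Perm Ω} (hxX : x ∈ X) (hxc : x.IsCycle)
    (hcard : Fintype.card Ω ≤ x.support.card + 2) {g : Perm Ω} (hg : g ∈ X)
    (hgx : g * x = x * g) : g ∈ zpowers x := by
  obtain ⟨ω, hω, hcyc⟩ := hxc
  have hcomm : ∀ y, g (x y) = x (g y) := fun y => congrArg (fun f : Perm Ω => f y) hgx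
  have hgω : x (g ω) ≠ g ω := by
    intro h
    apply hω
    apply g.injective
    rw [hcomm, h]
  obtain ⟨i, hi⟩ := hcyc hgω
  let h : Perm Ω := (x ^ i)⁻¹ * g
  have hfix : ∀ y, x y ≠ y → h y = y := by
    intro y hy
    obtain ⟨j, rfl⟩ := hcyc hy
    have h1 : Commute g x := hgx
    have h2 : g * x ^ j = x ^ j * g := (h1.zpow_right j).eq
    have h3 := congrArg (fun f : Perm Ω => f ω) h2
    simp only [Perm.mul_apply] at h3
    change (x ^ i)⁻¹ (g ((x ^ j) ω)) = (x ^ j) ω
    rw [h3, ← hi, Perm.inv_eq_iff_eq, ← Perm.mul_apply, ← Perm.mul_apply, ← zpow_add, ← zpow_add,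
      add_comm]
  have hsupp : h.support ⊆ x.supportᶜ := by
    intro y hy
    rw [Finset.mem_compl, Perm.mem_support, not_not]
    by_contra hne
    exact (Perm.mem_support.mp hy) (hfix y hne)
  have hc : h.support.card ≤ 2 := by
    have h1 := Finset.card_le_card hsupp
    rw [Finset.card_compl] at h1
    omega
  have hX' : h ∈ X := X.mul_mem (X.inv_mem (X.zpow_mem hxX i)) hg
  by_cases h1 : h = 1
  · exact ⟨i, by
      change x ^ i = g
      have : (x ^ i)⁻¹ * g = 1 := h1
      exact inv_mul_eq_one.mp this⟩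
  · exfalso
    apply hnt
    have h2 : h.support.card ≠ 0 := by
      rw [ne_eq, Perm.card_support_eq_zero]
      exact h1
    have h3 : h.support.card ≠ 1 := Perm.card_support_ne_one h
    have h4 : h.IsSwap := Perm.card_support_eq_two.mp (by omega)
    exact Equiv.Perm.subgroup_eq_top_of_isPreprimitive_of_isSwap_mem hX h h4 hX'

theorem mem_of_fix {r : ℕ} (hr : r.Prime) {x z : Perm Ω} (hxr : orderOf x = r) {ω : Ω}
    (hω : x ω ≠ ω) (hz : z ∈ zpowers x) (hzω : z ω = ω) : z = 1 := by
  by_contra hne
  have h1 : zpowers z = zpowers x := by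
    have hle : zpowers z ≤ zpowers x := zpowers_le.mpr hz
    apply Subgroup.eq_of_le_of_card_ge hle
    have hd : Nat.card (zpowers z) ∣ Nat.card (zpowers x) := Subgroup.card_dvd_of_le hle
    rw [Nat.card_zpowers x, hxr] at hd ⊢
    rcases (Nat.dvd_prime hr).mp hd with h | h
    · exfalso
      rw [Nat.card_zpowers, orderOf_eq_one_iff] at h
      exact hne h
    · exact h.ge
  have h2 : x ∈ zpowers z := by rw [h1]; exact mem_zpowers x
  obtain ⟨i, hi⟩ := h2
  apply hω
  rw [← hi]
  exact Perm.zpow_apply_eq_self_of_apply_eq_self hzω i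

theorem orbit_ncard {r : ℕ} (hr : r.Prime) {x : Perm Ω} (hxr : orderOf x = r) {ω : Ω}
    (hω : x ω ≠ ω) : (MulAction.orbit (zpowers x) ω).ncard = r := by
  have h1 := MulAction.index_stabilizer (zpowers x) ω
  have h2 : MulAction.stabilizer (zpowers x) ω = ⊥ := by
    rw [eq_bot_iff]
    intro z hz
    rw [mem_bot]
    exact Subtype.ext (mem_of_fix hr hxr hω z.2 hz)
  rw [← h1, h2, index_bot, Nat.card_zpowers, hxr]

/-- commuting with a product of two `5`-cycles and fixing a moved point -/
theorem pow_fix {r : ℕ} (hr : r.Prime) {x h : Perm Ω} (hxr : orderOf x = r)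
    (hsupp : x.support.card ≤ 2 * r) {ω : Ω} (hω : x ω ≠ ω) (hhx : h * x = x * h) (hhω : h ω = ω)
    (y : Ω) (hy : x y ≠ y) : (h ^ r) y = y := by
  have hcomm : Commute h x := hhx
  have hz : ∀ (i : ℤ) (y : Ω), h ((x ^ i) y) = (x ^ i) (h y) := fun i y =>
    congrArg (fun f : Perm Ω => f y) (hcomm.zpow_right i).eq
  -- `h y = x ^ i y`
  have key : ∃ i : ℤ, h y = (x ^ i) y := by
    by_cases hyω : y ∈ MulAction.orbit (zpowers x) ω
    · obtain ⟨⟨_, i, rfl⟩, rfl⟩ := hyω
      refine ⟨0, ?_⟩
      change h ((x ^ i) ω) = (x ^ (0 : ℤ)) ((x ^ i) ω)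
      rw [hz, hhω, zpow_zero]
      rfl
    · let B : Set Ω := (x.support : Set Ω) \ MulAction.orbit (zpowers x) ω
      have hO : ∀ z, x z ≠ z → MulAction.orbit (zpowers x) z ⊆ (x.support : Set Ω) := by
        rintro z hz' _ ⟨⟨_, i, rfl⟩, rfl⟩
        rw [Finset.mem_coe, Perm.mem_support]
        change x ((x ^ i) z) ≠ (x ^ i) z
        rw [← Perm.mul_apply, (Commute.self_zpow x i).eq, Perm.mul_apply]
        exact fun h => hz' ((x ^ i).injective h)
      have hB : B.ncard ≤ r := by
        have h1 := Set.ncard_sdiff_add_ncard_of_subset (hO ω hω)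
        rw [orbit_ncard hr hxr hω, Set.ncard_coe_finset] at h1
        change B.ncard + r = _ at h1
        omega
      have hsub : MulAction.orbit (zpowers x) y ⊆ B := by
        intro z hzy
        refine ⟨hO y hy hzy, fun hzω => hyω ?_⟩
        have e1 := MulAction.orbit_eq_iff.mpr hzy
        have e2 := MulAction.orbit_eq_iff.mpr hzω
        rw [← e2, e1]
        exact MulAction.mem_orbit_self y
      have heq : MulAction.orbit (zpowers x) y = B :=
        Set.eq_of_subset_of_ncard_le hsub (by rw [orbit_ncard hr hxr hy]; exact hB)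
      have hhy : h y ∈ B := by
        refine ⟨?_, ?_⟩
        · rw [Finset.mem_coe, Perm.mem_support]
          intro h'
          apply hy
          apply h.injective
          have := hz 1 y
          rw [zpow_one] at this
          rw [this, h']
        · rintro ⟨⟨_, i, rfl⟩, hi⟩
          change (x ^ i) ω = h y at hi
          apply hyω
          refine ⟨⟨x ^ i, i, rfl⟩, ?_⟩
          change (x ^ i) ω = y
          apply h.injective
          rw [hz, hhω, hi]
      rw [← heq] at hhy
      obtain ⟨⟨_, i, rfl⟩, hi⟩ := hhy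
      exact ⟨i, hi.symm⟩
  obtain ⟨i, hi⟩ := key
  have hpow : ∀ n : ℕ, (h ^ n) y = (x ^ (i * n)) y := by
    intro n
    induction n with
    | zero => simp
    | succ n ih =>
      rw [pow_succ', Perm.mul_apply, ih, hz, hi, ← Perm.mul_apply, ← zpow_add]
      congr 2
      push_cast
      ring
  rw [hpow, zpow_mul, zpow_natCast, ← zpow_natCast, ← zpow_mul, mul_comm, zpow_mul, zpow_natCast,
    ← hxr, pow_orderOf_eq_one, one_zpow]
  rfl

/-- two commuting elements of order `r`, one of which fixes a point moved by the other -/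
theorem eq_one_of_not_dvd {r : ℕ} (hr : r.Prime) (X : Subgroup (Perm Ω)) {x h : Perm Ω}
    (hx : x ∈ X) (hh : h ∈ X) (hxr : orderOf x = r) (hhr : h ^ r = 1) (hhx : h * x = x * h)
    {ω : Ω} (hω : x ω ≠ ω) (hhω : h ω = ω) (hX : ¬ r ^ 2 ∣ Nat.card X) : h = 1 := by
  by_contra hne
  apply hX
  have : Fact r.Prime := ⟨hr⟩
  have hho : orderOf h = r := orderOf_eq_prime hhr hne
  have hdis : Disjoint (zpowers x) (zpowers h) := by
    rw [disjoint_def]
    intro z hzx hzh
    apply mem_of_fix hr hxr hω hzx
    obtain ⟨i, rfl⟩ := hzh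
    exact Perm.zpow_apply_eq_self_of_apply_eq_self hhω i
  have hcomm : ∀ (a : zpowers x) (b : zpowers h),
      Commute ((zpowers x).subtype a) ((zpowers h).subtype b) := by
    rintro ⟨_, i, rfl⟩ ⟨_, j, rfl⟩
    have h1 : Commute x h := (show h * x = x * h from hhx).symm
    exact (h1.zpow_zpow i j)
  let f := MonoidHom.noncommCoprod (zpowers x).subtype (zpowers h).subtype hcomm
  have hf : Function.Injective f := by
    rw [MonoidHom.noncommCoprod_injective]
    refine ⟨(zpowers x).subtype_injective, (zpowers h).subtype_injective, ?_⟩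
    rw [range_subtype, range_subtype]
    exact hdis
  have hfX : ∀ z, f z ∈ X := by
    intro z
    have h1 : (z.1 : Perm Ω) ∈ X := (zpowers_le.mpr hx) z.1.2
    have h2 : (z.2 : Perm Ω) ∈ X := (zpowers_le.mpr hh) z.2.2
    exact X.mul_mem h1 h2
  have hcard := Subgroup.card_dvd_of_injective (f.codRestrict X hfX) (fun a b hab =>
    hf (congrArg Subtype.val hab))
  rw [Nat.card_prod, Nat.card_zpowers, Nat.card_zpowers, hxr, hho, ← sq] at hcard
  exact hcard

/-- a primitive group of degree 10, 11 or 12 with order divisible by 25 -/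
theorem jordan_five (X : Subgroup (Perm Ω)) (hX : MulAction.IsPreprimitive X Ω)
    (h10 : 10 ≤ Fintype.card Ω) (h12 : Fintype.card Ω ≤ 12) (h25 : 5 ^ 2 ∣ Nat.card X) :
    alternatingGroup Ω ≤ X := by
  have : Fact (Nat.Prime 5) := ⟨by norm_num⟩
  obtain ⟨P, hP⟩ := Sylow.exists_subgroup_card_pow_prime 5 h25
  have hPc := IsPGroup.isMulCommutative_of_card_eq_prime_sq hP
  have hnt : P ≠ ⊥ := by
    rintro rfl
    rw [card_bot] at hP
    norm_num at hP
  obtain ⟨g, hg1⟩ := ne_bot_iff_exists_ne_one.mp hnt
  have hg1' : (g : Perm Ω) ≠ 1 := fun h => hg1 (Subtype.ext (Subtype.ext h))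
  obtain ⟨ω, hω⟩ : ∃ ω, (g : Perm Ω) ω ≠ ω := by
    by_contra hcon
    push Not at hcon
    exact hg1' (Equiv.ext hcon)
  have h1 := MulAction.index_stabilizer P ω
  have h2 := (MulAction.stabilizer P ω).card_mul_index
  rw [hP, h1] at h2
  have h3 : (MulAction.orbit P ω).ncard ≤ 12 := by
    refine le_trans (Set.ncard_le_card _) ?_
    rw [Nat.card_eq_fintype_card]
    exact h12
  have h4 : (MulAction.orbit P ω).ncard ≠ 1 := by
    intro h
    rw [h, mul_one] at h2
    have h5 : MulAction.stabilizer P ω = ⊤ := by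
      apply Subgroup.eq_top_of_card_eq
      rw [h2, hP]
    apply hω
    have h6 : g ∈ MulAction.stabilizer P ω := by rw [h5]; exact mem_top _
    exact h6
  have h5 : (MulAction.orbit P ω).ncard = 5 := by
    have h6 : (MulAction.orbit P ω).ncard ∣ 5 ^ 2 := ⟨_, by rw [mul_comm]; exact h2.symm⟩
    obtain ⟨k, hk, hk'⟩ := (Nat.dvd_prime_pow (by norm_num)).mp h6
    interval_cases k <;> omega
  have h6 : Nat.card (MulAction.stabilizer P ω) = 5 := by
    rw [h5] at h2
    omega
  have h7 : MulAction.stabilizer P ω ≠ ⊥ := by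
    intro h
    rw [h, card_bot] at h6
    omega
  obtain ⟨q, hq⟩ := ne_bot_iff_exists_ne_one.mp h7
  have hqo : orderOf q = 5 := by
    have h8 : orderOf q ∣ 5 := by rw [← h6]; exact orderOf_dvd_natCard q
    rcases (Nat.dvd_prime (by norm_num)).mp h8 with h | h
    · exact absurd (orderOf_eq_one_iff.mp h) hq
    · exact h
  let y : Perm Ω := ((q : P) : X)
  have hyo : orderOf y = 5 := by
    rw [← hqo, ← Subgroup.orderOf_coe q, ← Subgroup.orderOf_coe (q : P),
      ← Subgroup.orderOf_coe ((q : P) : X)]
  have hyfix : ∀ z ∈ MulAction.orbit P ω, y z = z := by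
    rintro _ ⟨p, rfl⟩
    have h8 : (q : P) * p = p * (q : P) := mul_comm' _ _
    have h9 : (q : P) • (p • ω) = p • ω := by
      rw [← mul_smul, h8, mul_smul]
      have : (q : P) • ω = ω := q.2
      rw [this]
    exact h9
  have hsupp : y.support.card ≤ 7 := by
    have h8 : (y.support : Set Ω) ⊆ (MulAction.orbit P ω)ᶜ := by
      intro z hz hzo
      rw [Finset.mem_coe, Perm.mem_support] at hz
      exact hz (hyfix z hzo)
    have h9 := Set.ncard_le_ncard h8
    rw [Set.ncard_coe_finset] at h9
    have h10 := Set.ncard_add_ncard_compl (MulAction.orbit P ω)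
    rw [Nat.card_eq_fintype_card] at h10
    omega
  have hcyc : y.IsCycle := Perm.isCycle_of_prime_order (by rw [hyo]; norm_num) (by omega)
  have hsc : y.support.card = 5 := by rw [← hcyc.orderOf, hyo]
  exact Cfsg.Agent.S0713.result X hX (p := 5) (by norm_num) (by omega) (by omega) hcyc hsc
    ((q : P) : X).2

omit [DecidableEq Ω] in
/-- centralizer of an element inside a subgroup -/
theorem card_centralizer_le (X : Subgroup (Perm Ω)) (x : X) {n : ℕ}
    (hn : ∀ (P : Finset (Perm Ω)), (∀ g ∈ P, g ∈ X ∧ g * x = x * g) → P.card ≤ n) :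
    Nat.card (centralizer ({x} : Set X)) ≤ n := by
  classical
  have : Fintype (centralizer ({x} : Set X)) := Fintype.ofFinite _
  rw [Nat.card_eq_fintype_card]
  let P : Finset (Perm Ω) := Finset.univ.map
    ⟨fun g : centralizer ({x} : Set X) => ((g : X) : Perm Ω), fun a b hab =>
      Subtype.ext (Subtype.ext hab)⟩
  have h1 := hn P (by
    intro g hg
    rw [Finset.mem_map] at hg
    obtain ⟨g', -, rfl⟩ := hg
    refine ⟨(g' : X).2, ?_⟩
    have h2 := g'.2
    rw [mem_centralizer_singleton_iff] at h2
    exact congrArg Subtype.val h2)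
  rw [Finset.card_map] at h1
  exact h1

/-- A primitive group of degree at most 13 with a simple non-abelian normal subgroup -/
theorem small_quot (X : Subgroup (Perm Ω)) (hX : MulAction.IsPreprimitive X Ω) (S : Subgroup X)
    [hSn : S.Normal] [hSs : IsSimpleGroup S] (hna : ∃ a b : S, a * b ≠ b * a)
    (h13 : Fintype.card Ω ≤ 13) : 5 ≤ Fintype.card Ω ∧
    Nat.card (X ⧸ S) < 8 ∧ (Fintype.card Ω ≤ 8 → Nat.card (X ⧸ S) < 4) := by
  have hperf : commutator S = ⊤ := by
    rcases (inferInstance : (commutator S).Normal).eq_bot_or_eq_top with h | h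
    · exfalso
      obtain ⟨a, b, hab⟩ := hna
      apply hab
      have h1 : a * b * a⁻¹ * b⁻¹ ∈ commutator S :=
        commutator_mem_commutator (mem_top a) (mem_top b)
      rw [h, mem_bot, mul_inv_eq_one, mul_inv_eq_iff_eq_mul] at h1
      exact h1
    · exact h
  have hSfac : Nat.card S ∣ (Fintype.card Ω).factorial := by
    rw [← Nat.card_eq_fintype_card, ← Nat.card_perm]
    exact (card_subgroup_dvd_card S).trans (card_subgroup_dvd_card X)
  have hSbot : S ≠ ⊥ := by
    rintro rfl
    exact absurd (inferInstance : Nontrivial (⊥ : Subgroup X)) (not_nontrivial _)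
  -- a prime divisor
  obtain ⟨r, hr, hr5, hrS, hr13⟩ : ∃ r, r.Prime ∧ 5 ≤ r ∧ r ∣ Nat.card S ∧
      (Fintype.card Ω = 13 → r = 13) := by
    by_cases h : Fintype.card Ω = 13
    · refine ⟨13, by norm_num, by norm_num, ?_, fun _ => rfl⟩
      obtain ⟨htr, -, -⟩ := prim_facts X hX S hSbot
      have hne : Nonempty Ω := by
        rw [← Fintype.card_pos_iff]
        omega
      obtain ⟨a⟩ := hne
      have h1 := MulAction.index_stabilizer_of_transitive S a
      have h2 := (MulAction.stabilizer S a).card_mul_index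
      rw [h1, Nat.card_eq_fintype_card (α := Ω), h] at h2
      exact ⟨_, by rw [mul_comm]; exact h2.symm⟩
    · by_contra hcon
      push Not at hcon
      have h1 : ∀ r, r.Prime → 5 ≤ r → ¬ r ∣ Nat.card S := by
        intro r hr hr5 hrS
        exact h (hcon r hr hr5 hrS).1
      have hne : Nat.card S ≠ 0 := Nat.card_pos.ne'
      have h2 : Nat.card S = 2 ^ (Nat.card S).factorization 2 * 3 ^ (Nat.card S).factorization 3 := by
        have h3 := Nat.prod_factorization_pow_eq_self hne
        have h4 : (Nat.card S).factorization.support ⊆ {2, 3} := by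
          intro r hr
          rw [Nat.support_factorization, Nat.mem_primeFactors] at hr
          have h5 : r < 5 := by
            by_contra hge
            push Not at hge
            exact h1 r hr.1 hge hr.2.1
          have h6 := hr.1
          interval_cases r
          · exact absurd h6 (by norm_num)
          · exact absurd h6 (by norm_num)
          · simp
          · simp
          · exact absurd h6 (by norm_num)
        rw [Finsupp.prod_of_support_subset _ h4 _ (by simp)] at h3
        rw [Finset.prod_pair (by norm_num)] at h3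
        exact h3.symm
      have h3 := Cfsg.Agent.S0144.result (G := S) 2 3 _ _ Nat.prime_two Nat.prime_three h2
      obtain ⟨a, b, hab⟩ := hna
      exact hab (IsSimpleGroup.comm_iff_isSolvable.mpr h3 a b)
  have : Fact r.Prime := ⟨hr⟩
  have hrΩ : r ≤ Fintype.card Ω := (hr.dvd_factorial).mp (hrS.trans hSfac)
  refine ⟨by omega, ?_⟩
  obtain ⟨x, hx⟩ := exists_prime_orderOf_dvd_card' r hrS
  have hxo : orderOf ((x : X) : Perm Ω) = r := by
    rw [Subgroup.orderOf_coe, Subgroup.orderOf_coe, hx]
  have hxX : ((x : X) : Perm Ω) ∈ X := (x : X).2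
  -- two easy ways to finish
  have halt : alternatingGroup Ω ≤ X →
      Nat.card (X ⧸ S) < 8 ∧ (Fintype.card Ω ≤ 8 → Nat.card (X ⧸ S) < 4) := by
    intro h
    have := alt_case X S hna (by omega) h
    omega
  have hjor : r + 3 ≤ Fintype.card Ω → ((x : X) : Perm Ω).IsCycle →
      Nat.card (X ⧸ S) < 8 ∧ (Fintype.card Ω ≤ 8 → Nat.card (X ⧸ S) < 4) := by
    intro h h'
    apply halt
    exact Cfsg.Agent.S0713.result X hX hr (by omega) h h' (by rw [← h'.orderOf, hxo]) hxX
  by_cases htop : X = ⊤
  · exact halt (by rw [htop]; exact le_top)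
  have hr13' : r ≤ 13 := hrΩ.trans h13
  have hrcases : r = 5 ∨ r = 7 ∨ r = 11 ∨ r = 13 := by
    interval_cases r <;> first | omega | (exfalso; revert hr; norm_num)
  by_cases h2r : Fintype.card Ω < 2 * r
  · have hcyc : ((x : X) : Perm Ω).IsCycle :=
      Perm.isCycle_of_prime_order' (by rw [hxo]; exact hr) (by rw [hxo]; exact h2r)
    by_cases h3 : r + 3 ≤ Fintype.card Ω
    · exact hjor h3 hcyc
    have hsupp : ((x : X) : Perm Ω).support.card = r := by rw [← hcyc.orderOf, hxo]
    have hr2 : ¬ r ^ 2 ∣ Nat.card S := by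
      intro h
      have h4 := h.trans hSfac
      rcases hrcases with rfl | rfl | rfl | rfl
      · have h5 := h4.trans (Nat.factorial_dvd_factorial (show Fintype.card Ω ≤ 9 by omega))
        revert h5
        norm_num [Nat.factorial]
      all_goals
        have h5 := h4.trans (Nat.factorial_dvd_factorial h13)
        revert h5
        norm_num [Nat.factorial]
    obtain ⟨j, k, h4, h5, h6⟩ := quot_card S hperf hr2 x.2 (by rw [← hx, Subgroup.orderOf_coe])
    have hC : centralizer ({(x : X)} : Set X) = zpowers (x : X) := by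
      apply le_antisymm
      · intro g hg
        rw [mem_centralizer_singleton_iff] at hg
        obtain ⟨i, hi⟩ := comm_cycle X hX htop hxX hcyc (by omega) g.2 (congrArg Subtype.val hg)
        exact ⟨i, Subtype.ext hi⟩
      · rw [zpowers_le, mem_centralizer_singleton_iff]
    have hle : zpowers (x : X) ≤ S := zpowers_le.mpr x.2
    rw [hC, inf_eq_left.mpr hle, Nat.card_zpowers, Subgroup.orderOf_coe, hx] at h4
    have h7 : Nat.card (X ⧸ S) * k = j := by
      apply Nat.eq_of_mul_eq_mul_left hr.pos
      rw [← h4]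
      ring
    have h8 : j ≤ r - 1 := Nat.le_of_dvd (by omega) h5
    have h9 : Nat.card (X ⧸ S) * 2 ≤ Nat.card (X ⧸ S) * k := Nat.mul_le_mul_left _ h6
    refine ⟨by omega, fun h => by omega⟩
  · push Not at h2r
    have hr5' : r = 5 := by omega
    subst hr5'
    have h12 : Fintype.card Ω ≤ 12 := by
      by_contra hcon
      have := hr13 (by omega)
      omega
    by_cases h25 : 5 ^ 2 ∣ Nat.card X
    · exact halt (jordan_five X hX (by omega) h12 h25)
    by_cases hcyc : ((x : X) : Perm Ω).IsCycle
    · exact hjor (by omega) hcyc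
    have hsupp : ((x : X) : Perm Ω).support.card = 10 := by
      obtain ⟨n, hn⟩ := Perm.cycleType_prime_order (σ := ((x : X) : Perm Ω)) (by rw [hxo]; norm_num)
      have h3 := Perm.sum_cycleType ((x : X) : Perm Ω)
      rw [hn, Multiset.sum_replicate, hxo, smul_eq_mul] at h3
      have h4 : ((x : X) : Perm Ω).support.card ≤ Fintype.card Ω := Finset.card_le_univ _
      have h5 : n ≠ 0 := by
        rintro rfl
        apply hcyc
        rw [← Perm.card_cycleType_eq_one, hn, Multiset.card_replicate]
      have h6 : n = 1 := by omega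
      rw [← h3, h6]
    have hr2 : ¬ 5 ^ 2 ∣ Nat.card S := fun h => h25 (h.trans (card_subgroup_dvd_card S))
    obtain ⟨j, k, h4, h5, h6⟩ := quot_card S hperf hr2 x.2 (by rw [← hx, Subgroup.orderOf_coe])
    -- a moved point
    obtain ⟨ω, hω⟩ : ∃ ω, ((x : X) : Perm Ω) ω ≠ ω := by
      have : ((x : X) : Perm Ω).support.Nonempty := by
        rw [← Finset.card_pos]
        omega
      obtain ⟨ω, hω⟩ := this
      exact ⟨ω, Perm.mem_support.mp hω⟩
    have hC : Nat.card (centralizer ({(x : X)} : Set X)) ≤ 12 := by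
      apply card_centralizer_le
      intro P hP
      refine le_trans ?_ h12
      rw [← Finset.card_univ]
      apply Finset.card_le_card_of_injOn (fun g => g ω) (fun _ _ => Finset.mem_coe.mpr (Finset.mem_univ _))
      intro g hg g' hg' heq
      obtain ⟨hgX, hgx⟩ := hP g hg
      obtain ⟨hgX', hgx'⟩ := hP g' hg'
      have heq' : g ω = g' ω := heq
      let h := g⁻¹ * g'
      have hhX : h ∈ X := X.mul_mem (X.inv_mem hgX) hgX'
      have hhx : h * ((x : X) : Perm Ω) = ((x : X) : Perm Ω) * h := by
        have c1 : Commute g ((x : X) : Perm Ω) := hgx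
        have c2 : Commute g' ((x : X) : Perm Ω) := hgx'
        exact (c1.inv_left.mul_left c2)
      have hhω : h ω = ω := by
        change g⁻¹ (g' ω) = ω
        rw [← heq', ← Perm.mul_apply, inv_mul_cancel]
        rfl
      have hfix := pow_fix (by norm_num : Nat.Prime 5) hxo (by omega) hω hhx hhω
      have hh5 : h ^ 5 = 1 := by
        by_contra hne
        apply htop
        have e1 : (h ^ 5).support ⊆ ((x : X) : Perm Ω).supportᶜ := by
          intro y hy
          rw [Finset.mem_compl, Perm.mem_support, not_not]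
          by_contra hne
          exact (Perm.mem_support.mp hy) (hfix y hne)
        have e2 := Finset.card_le_card e1
        rw [Finset.card_compl] at e2
        have e3 : (h ^ 5).support.card ≠ 0 := by
          rw [ne_eq, Perm.card_support_eq_zero]
          exact hne
        have e4 : (h ^ 5).support.card ≠ 1 := Perm.card_support_ne_one _
        have e5 : (h ^ 5).IsSwap := Perm.card_support_eq_two.mp (by omega)
        exact Equiv.Perm.subgroup_eq_top_of_isPreprimitive_of_isSwap_mem hX _ e5
          (X.pow_mem hhX 5)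
      have hh1 := eq_one_of_not_dvd (by norm_num : Nat.Prime 5) X hxX hhX hxo hh5 hhx hω hhω h25
      exact (inv_mul_eq_one.mp hh1)
    have hCS : 5 ≤ Nat.card (centralizer ({(x : X)} : Set X) ⊓ S : Subgroup X) := by
      have h7 : zpowers (x : X) ≤ centralizer ({(x : X)} : Set X) ⊓ S := by
        rw [zpowers_le]
        exact ⟨mem_centralizer_singleton_iff.mpr rfl, x.2⟩
      have h8 := Subgroup.card_le_of_le h7
      rw [Nat.card_zpowers, Subgroup.orderOf_coe, hx] at h8
      exact h8
    have h7 : j ≤ 4 := Nat.le_of_dvd (by omega) h5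
    have h8 : Nat.card (X ⧸ S) * (5 * 2) ≤
        Nat.card (X ⧸ S) * (Nat.card (centralizer ({(x : X)} : Set X) ⊓ S : Subgroup X) * k) :=
      Nat.mul_le_mul_left _ (Nat.mul_le_mul hCS h6)
    have h9 : Nat.card (centralizer ({(x : X)} : Set X)) * j ≤ 12 * 4 := Nat.mul_le_mul hC h7
    refine ⟨by omega, fun h => by omega⟩

end perms

end Cfsg.Agent.H893
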